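import Mathlib
import Cfsg.Agent.S0215
import Cfsg.Agent.Lib.Helper17.Small
import Cfsg.Agent.Lib.Helper82.TwoMaxA
import Cfsg.Agent.Lib.Helper69.CyclicSylow
import Cfsg.Agent.Lib.Helper24.NormCent

/-!
Groups of order `7920 = 2^4 * 3^2 * 5 * 11`: the two configurations for the Sylow `11`-subgroups
(`45` or `144` of them) that have to be excluded when every non-trivial normal subgroup has order
divisible by `11`.  Tools: Burnside's transfer theorem inside a normal subgroup and Glauberman's
Z*-theorem.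
-/

set_option autoImplicit false

namespace Cfsg.Agent.Lib.Helper52.PG7920

open Subgroup

variable {G : Type*} [Group G]

/-- Burnside's transfer theorem inside a normal subgroup `N`: if a Sylow `p`-subgroup `S` of `G`
lies in `N` and `N ∩ N_G(S) ≤ C_G(S)`, then `G` has a normal subgroup `K ≤ N` with
`|K| * |S| = |N|`. -/
theorem burnside_normal [Finite G] {p : ℕ} [Fact p.Prime] (N : Subgroup G) [hN : N.Normal]
    (S : Sylow p G) (hSN : (S : Subgroup G) ≤ N)
    (hNC : N ⊓ normalizer ((S : Subgroup G) : Set G) ≤ centralizer ((S : Subgroup G) : Set G)) :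
    ∃ K : Subgroup G, K.Normal ∧ K ≤ N ∧
      Nat.card K * Nat.card (S : Subgroup G) = Nat.card N := by
  classical
  let S' : Sylow p N := S.subtype hSN
  have hS' : (S' : Subgroup N) = (S : Subgroup G).subgroupOf N := Sylow.coe_subtype S hSN
  have hmem : ∀ h : N, h ∈ (S' : Subgroup N) ↔ (h : G) ∈ (S : Subgroup G) := by
    intro h
    rw [hS', mem_subgroupOf]
  have hP' : normalizer ((S' : Subgroup N) : Set N) ≤ centralizer ((S' : Subgroup N) : Set N) := by
    intro n hn
    rw [mem_normalizer_iff] at hn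
    have hnG : (n : G) ∈ N ⊓ normalizer ((S : Subgroup G) : Set G) := by
      refine mem_inf.mpr ⟨n.2, ?_⟩
      rw [mem_normalizer_iff]
      intro g
      constructor
      · intro hg
        have h1 := (hn ⟨g, hSN hg⟩).mp ((hmem _).mpr hg)
        exact (hmem _).mp h1
      · intro hg
        have hgN : g ∈ N := by
          have h1 : (n : G) * g * (n : G)⁻¹ ∈ N := hSN hg
          have h2 : (n : G)⁻¹ * ((n : G) * g * (n : G)⁻¹) * (n : G) ∈ N :=
            N.mul_mem (N.mul_mem (N.inv_mem n.2) h1) n.2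
          have e : (n : G)⁻¹ * ((n : G) * g * (n : G)⁻¹) * (n : G) = g := by group
          rwa [e] at h2
        have h1 := (hn ⟨g, hgN⟩).mpr ((hmem _).mpr hg)
        exact (hmem _).mp h1
    have hc := hNC hnG
    rw [mem_centralizer_iff] at hc ⊢
    intro h hh
    apply Subtype.ext
    exact hc (h : G) ((hmem h).mp hh)
  have hc := MonoidHom.ker_transferSylow_isComplement' S' hP'
  set K0 : Subgroup N := (MonoidHom.transferSylow S' hP').ker with hK0
  have hcard : Nat.card K0 * Nat.card (S' : Subgroup N) = Nat.card N := hc.card_mul_card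
  have hS'card : Nat.card (S' : Subgroup N) = Nat.card (S : Subgroup G) := by
    rw [hS']
    exact Nat.card_congr (subgroupOfEquivOfLe hSN).toEquiv
  have hnd : ¬ p ∣ Nat.card K0 := MonoidHom.not_dvd_card_ker_transferSylow S' hP'
  have hcop : (Nat.card K0).Coprime p :=
    ((Nat.Prime.coprime_iff_not_dvd Fact.out).mpr hnd).symm
  have hidx : ∃ m : ℕ, K0.index = p ^ m := by
    obtain ⟨k, hk⟩ := S'.2.exists_card_eq
    refine ⟨k, ?_⟩
    rw [← hk]
    exact hc.symm.index_eq_card
  have hnorm : (K0.map N.subtype).Normal :=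
    Cfsg.Agent.Lib.Helper69.normal_map_subtype_of_coprime_of_index_pow p N K0 hcop hidx
  refine ⟨K0.map N.subtype, hnorm, map_subtype_le _, ?_⟩
  rw [card_map_of_injective N.subtype_injective, ← hS'card]
  exact hcard

/-- If conjugation by `x` (with `x ^ p = 1`) acts on the finite set `W` without fixed points, then
`p` divides `|W|`. -/
theorem dvd_ncard_of_free_conj [Finite G] (p : ℕ) [Fact p.Prime] (W : Set G) (x : G)
    (hx : x ^ p = 1) (hinv : ∀ k ∈ W, x * k * x⁻¹ ∈ W) (hfree : ∀ k ∈ W, x * k * x⁻¹ ≠ k) :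
    p ∣ W.ncard := by
  classical
  have : Fintype W := Fintype.ofFinite W
  let f : Function.End W := fun t => ⟨x * t.1 * x⁻¹, hinv t.1 t.2⟩
  have hf : ∀ (k : ℕ) (t : W), ((f ^ k) t : G) = x ^ k * t.1 * (x ^ k)⁻¹ := by
    intro k
    induction k with
    | zero =>
      intro t
      rw [pow_zero, pow_zero, one_mul, inv_one, mul_one]
      rfl
    | succ k ih =>
      intro t
      rw [pow_succ']
      change ((f ((f ^ k) t) : W) : G) = _
      change x * ((f ^ k) t : G) * x⁻¹ = _
      rw [ih t, pow_succ']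
      group
  have hf1 : f ^ p ^ 1 = 1 := by
    funext t
    apply Subtype.ext
    rw [pow_one, hf, hx, one_mul, inv_one, mul_one]
    rfl
  have hmod := Equiv.Perm.card_fixedPoints_modEq (p := p) (n := 1) hf1
  have hfix : Function.fixedPoints f = ∅ := by
    ext t
    rw [Function.mem_fixedPoints]
    constructor
    · intro ht
      exact absurd (congrArg Subtype.val ht) (hfree t.1 t.2)
    · intro ht
      exact absurd ht (Set.notMem_empty t)
  have hc : Fintype.card ↑(Function.fixedPoints f) = 0 := by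
    rw [← Nat.card_eq_fintype_card, Nat.card_coe_set_eq, hfix, Set.ncard_empty]
  have hc2 : Fintype.card W = W.ncard := by
    rw [← Nat.card_eq_fintype_card, Nat.card_coe_set_eq]
  rw [hc, hc2] at hmod
  exact (Nat.modEq_zero_iff_dvd).mp hmod

theorem mem_centralizer_singleton_comm {a k : G} :
    a ∈ centralizer ({k} : Set G) ↔ Commute a k := by
  rw [mem_centralizer_singleton_iff]
  exact ⟨fun h => h, fun h => h.eq⟩

theorem num_aux45 (c : ℕ) (h1 : c ∣ 45) (h2 : c % 11 = 1) : c = 1 ∨ c = 45 := by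
  have h3 : c ≤ 45 := Nat.le_of_dvd (by norm_num) h1
  interval_cases c <;> omega

theorem relIndex_mul_card_of_le {A B : Subgroup G} (h : A ≤ B) :
    A.relIndex B * Nat.card A = Nat.card B := by
  rw [Subgroup.relIndex, ← Nat.card_congr (Subgroup.subgroupOfEquivOfLe h).toEquiv,
    Subgroup.index_mul_card]

section Order7920

variable [Finite G]

theorem card_sylow_eleven (hG : Nat.card G = 7920) (S : Sylow 11 G) :
    Nat.card (S : Subgroup G) = 11 := by
  have : Fact (Nat.Prime 11) := ⟨by norm_num⟩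
  have h := Cfsg.Agent.Lib.Helper17.card_sylow_eq_of_card_eq (G := G) 11 1 720
    (by rw [hG]; norm_num) (by norm_num) S
  simpa using h

theorem card_sylow_two (hG : Nat.card G = 7920) (P : Sylow 2 G) :
    Nat.card (P : Subgroup G) = 16 := by
  have h := Cfsg.Agent.Lib.Helper17.card_sylow_eq_of_card_eq (G := G) 2 4 495
    (by rw [hG]; norm_num) (by norm_num) P
  simpa using h

theorem card_normalizer_eleven (hG : Nat.card G = 7920) (h45 : Nat.card (Sylow 11 G) = 45)
    (S : Sylow 11 G) : Nat.card (normalizer ((S : Subgroup G) : Set G)) = 176 := by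
  have : Fact (Nat.Prime 11) := ⟨by norm_num⟩
  have h := Cfsg.Agent.Lib.Helper17.card_sylow_mul_card_normalizer 11 S
  rw [h45, hG] at h
  omega

/-- A normal subgroup of order divisible by `11` contains every Sylow `11`-subgroup. -/
theorem sylow_le_of_normal (hG : Nat.card G = 7920) (S : Sylow 11 G) (M : Subgroup G)
    [hM : M.Normal] (h11 : 11 ∣ Nat.card M) : (S : Subgroup G) ≤ M := by
  have : Fact (Nat.Prime 11) := ⟨by norm_num⟩
  obtain ⟨x, hx⟩ := exists_prime_orderOf_dvd_card' (G := M) 11 h11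
  have hxG : orderOf (x : G) = 11 := by rw [Subgroup.orderOf_coe]; exact hx
  have hpg : IsPGroup 11 (zpowers (x : G)) :=
    IsPGroup.of_card (n := 1) (by rw [Nat.card_zpowers, hxG, pow_one])
  obtain ⟨Q, hQ⟩ := hpg.exists_le_sylow
  have hQ11 := card_sylow_eleven hG Q
  have hQeq : zpowers (x : G) = Q :=
    Subgroup.eq_of_le_of_card_ge hQ (by rw [hQ11, Nat.card_zpowers, hxG])
  have hQM : (Q : Subgroup G) ≤ M := by
    rw [← hQeq, zpowers_le]; exact x.2
  obtain ⟨g, hg⟩ := MulAction.exists_smul_eq G Q S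
  intro y hy
  rw [← hg, Sylow.smul_def, Sylow.pointwise_smul_def,
    Subgroup.mem_pointwise_smul_iff_inv_smul_mem] at hy
  have h1 : (MulAut.conj g)⁻¹ • y ∈ M := hQM hy
  rw [MulAut.smul_def, MulAut.conj_inv_apply] at h1
  have h2 := hM.conj_mem _ h1 g
  have e : g * (g⁻¹ * y * g) * g⁻¹ = y := by group
  rwa [e] at h2

/-- Under the hypothesis that non-trivial normal subgroups have order divisible by `11`, and with
`45` Sylow `11`-subgroups, a normal subgroup inside the normalizer of a Sylow `11`-subgroup is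
trivial. -/
theorem eq_bot_of_normal_of_le_normalizer (hG : Nat.card G = 7920)
    (h45 : Nat.card (Sylow 11 G) = 45)
    (CI : ∀ M : Subgroup G, M.Normal → M ≠ ⊥ → 11 ∣ Nat.card M) (S : Sylow 11 G)
    (M : Subgroup G) [hM : M.Normal] (hMS : M ≤ normalizer ((S : Subgroup G) : Set G)) :
    M = ⊥ := by
  by_contra hne
  have h11 := CI M hM hne
  have hSM := sylow_le_of_normal hG S M h11
  have : Fact (Nat.Prime 11) := ⟨by norm_num⟩
  have htop := Sylow.normalizer_sup_eq_top' S hSM
  have h1 : normalizer ((S : Subgroup G) : Set G) = ⊤ := by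
    rw [← htop]; exact (sup_eq_left.mpr hMS).symm
  have hc := card_normalizer_eleven hG h45 S
  rw [h1, Subgroup.card_top, hG] at hc
  omega


/-- The set-up for the case of `45` Sylow `11`-subgroups: a Sylow `2`-subgroup `P` normalizing a
Sylow `11`-subgroup `S`, and an involution `z` of `P` centralizing `S` whose centralizer is the
normalizer of `S`. -/
theorem exists_setup (hG : Nat.card G = 7920) (h45 : Nat.card (Sylow 11 G) = 45)
    (CI : ∀ M : Subgroup G, M.Normal → M ≠ ⊥ → 11 ∣ Nat.card M) :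
    ∃ (P : Sylow 2 G) (S : Sylow 11 G) (z : G), orderOf z = 2 ∧ z ∈ (P : Subgroup G) ∧
      (P : Subgroup G) ≤ normalizer ((S : Subgroup G) : Set G) ∧
      centralizer ({z} : Set G) = normalizer ((S : Subgroup G) : Set G) ∧
      8 ≤ Nat.card ((P : Subgroup G) ⊓ centralizer ((S : Subgroup G) : Set G) : Subgroup G) := by
  have hp11 : Fact (Nat.Prime 11) := ⟨by norm_num⟩
  let P : Sylow 2 G := Classical.arbitrary (Sylow 2 G)
  obtain ⟨S, hS⟩ := (P.2).nonempty_fixed_point_of_prime_not_dvd_card (Sylow 11 G)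
    (by rw [h45]; decide)
  have hPH : (P : Subgroup G) ≤ normalizer ((S : Subgroup G) : Set G) :=
    (Subgroup.sylow_mem_fixedPoints_iff (P : Subgroup G)).mp hS
  have hS11 := card_sylow_eleven hG S
  have hP16 := card_sylow_two hG P
  have hH := card_normalizer_eleven hG h45 S
  set H : Subgroup G := normalizer ((S : Subgroup G) : Set G) with hHdef
  set C : Subgroup G := centralizer ((S : Subgroup G) : Set G) with hCdef
  obtain ⟨hdvd, hmul⟩ :=
    Cfsg.Agent.Lib.Helper17.relIndex_centralizer_of_card_prime 11 (S : Subgroup G) hS11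
  rw [← hHdef, ← hCdef] at hdvd hmul
  -- the index of `C` in `H` is at most two
  have hrel2 : C.relIndex H ≤ 2 := by
    have h1 : C.relIndex H ∣ 176 := by rw [← hH, ← hmul]; exact dvd_mul_right _ _
    have h2 : C.relIndex H ∣ Nat.gcd 10 176 := Nat.dvd_gcd hdvd h1
    have h3 : Nat.gcd 10 176 = 2 := by decide
    rw [h3] at h2
    exact Nat.le_of_dvd (by norm_num) h2
  have hrelne : C.relIndex H ≠ 0 := by
    intro h0
    rw [h0, zero_mul] at hmul
    omega
  have hrelP : C.relIndex (P : Subgroup G) ≤ 2 :=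
    (Subgroup.relIndex_le_of_le_right hPH hrelne).trans hrel2
  set T0 : Subgroup G := (P : Subgroup G) ⊓ C with hT0def
  have hT0card : 8 ≤ Nat.card T0 := by
    have h1 : T0.relIndex (P : Subgroup G) * Nat.card T0 = Nat.card (P : Subgroup G) :=
      relIndex_mul_card_of_le inf_le_left
    have h2 : T0.relIndex (P : Subgroup G) = C.relIndex (P : Subgroup G) := by
      rw [hT0def, inf_comm]; exact Subgroup.inf_relIndex_right C (P : Subgroup G)
    rw [h2, hP16] at h1
    have h3 : 0 < C.relIndex (P : Subgroup G) := by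
      rcases Nat.eq_zero_or_pos (C.relIndex (P : Subgroup G)) with h | h
      · rw [h, zero_mul] at h1; omega
      · exact h
    have h4 : C.relIndex (P : Subgroup G) = 1 ∨ C.relIndex (P : Subgroup G) = 2 := by omega
    rcases h4 with h | h <;> rw [h] at h1 <;> omega
  -- `T0` is normal in `P`
  have hT0n : (T0.subgroupOf (P : Subgroup G)).Normal := by
    refine ⟨fun n hn g => ?_⟩
    rw [mem_subgroupOf] at hn ⊢
    obtain ⟨-, hnC⟩ := mem_inf.mp hn
    refine mem_inf.mpr ⟨(g * n * g⁻¹).2, ?_⟩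
    have hgH : (g : G) ∈ H := hPH g.2
    rw [hCdef, mem_centralizer_iff] at hnC ⊢
    intro s hs
    have hs' : (g : G)⁻¹ * s * (g : G) ∈ (S : Subgroup G) := by
      have := (mem_normalizer_iff.mp (H.inv_mem hgH) s).mp hs
      simpa using this
    have hc := hnC _ hs'
    simp only [Subgroup.coe_mul, Subgroup.coe_inv]
    calc s * ((g : G) * (n : G) * (g : G)⁻¹)
        = (g : G) * (((g : G)⁻¹ * s * (g : G)) * (n : G)) * (g : G)⁻¹ := by group
      _ = (g : G) * ((n : G) * ((g : G)⁻¹ * s * (g : G))) * (g : G)⁻¹ := by rw [hc]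
      _ = (g : G) * (n : G) * (g : G)⁻¹ * s := by group
  have hT0ne : T0.subgroupOf (P : Subgroup G) ≠ ⊥ := by
    intro hbot
    have h1 : Nat.card (T0.subgroupOf (P : Subgroup G)) = Nat.card T0 :=
      Nat.card_congr (Subgroup.subgroupOfEquivOfLe inf_le_left).toEquiv
    rw [hbot, Subgroup.card_bot] at h1
    omega
  obtain ⟨z', hz'N, hz'C, hz'2⟩ :=
    Cfsg.Agent.Lib.Helper82.TM.exists_central_involution P.2 (T0.subgroupOf (P : Subgroup G)) hT0ne
  have hz2 : orderOf (z' : G) = 2 := by rw [Subgroup.orderOf_coe]; exact hz'2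
  have hzT0 : (z' : G) ∈ T0 := mem_subgroupOf.mp hz'N
  have hzC : (z' : G) ∈ C := (mem_inf.mp hzT0).2
  have hzP : ∀ g ∈ (P : Subgroup G), g * (z' : G) = (z' : G) * g := by
    intro g hg
    have := Subgroup.mem_center_iff.mp hz'C ⟨g, hg⟩
    exact congrArg Subtype.val this
  -- `H = S ⊔ P ≤ C_G(z)`
  have hSP : (S : Subgroup G) ⊔ (P : Subgroup G) = H := by
    apply Subgroup.eq_of_le_of_card_ge (sup_le (Subgroup.le_normalizer) hPH)
    have h1 : 11 ∣ Nat.card ((S : Subgroup G) ⊔ (P : Subgroup G) : Subgroup G) := by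
      have h := Subgroup.card_dvd_of_le
        (le_sup_left : (S : Subgroup G) ≤ (S : Subgroup G) ⊔ (P : Subgroup G))
      rwa [hS11] at h
    have h2 : 16 ∣ Nat.card ((S : Subgroup G) ⊔ (P : Subgroup G) : Subgroup G) := by
      have h := Subgroup.card_dvd_of_le
        (le_sup_right : (P : Subgroup G) ≤ (S : Subgroup G) ⊔ (P : Subgroup G))
      rwa [hP16] at h
    have h3 : 176 ∣ Nat.card ((S : Subgroup G) ⊔ (P : Subgroup G) : Subgroup G) :=
      Nat.Coprime.mul_dvd_of_dvd_of_dvd (by decide : Nat.Coprime 11 16) h1 h2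
    rw [hH]
    exact Nat.le_of_dvd Nat.card_pos h3
  have hHCz : H ≤ centralizer ({(z' : G)} : Set G) := by
    rw [← hSP]
    refine sup_le ?_ ?_
    · intro s hs
      rw [mem_centralizer_iff]
      intro h hh
      rw [Set.mem_singleton_iff] at hh
      subst hh
      rw [hCdef, mem_centralizer_iff] at hzC
      exact (hzC s hs).symm
    · intro g hg
      rw [mem_centralizer_iff]
      intro h hh
      rw [Set.mem_singleton_iff] at hh
      subst hh
      exact (hzP g hg).symm
  set Cz : Subgroup G := centralizer ({(z' : G)} : Set G) with hCzdef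
  have hSCz : (S : Subgroup G) ≤ Cz := Subgroup.le_normalizer.trans hHCz
  -- Sylow counting in `Cz`
  let S' : Sylow 11 Cz := S.subtype hSCz
  have e1 := Cfsg.Agent.Lib.Helper17.card_sylow_mul_card_normalizer 11 S'
  have e2 := Cfsg.Agent.Lib.Helper17.card_sylow_mod (G := Cz) 11
  have e3 : Nat.card (normalizer ((S' : Subgroup Cz) : Set Cz)) = 176 := by
    have h1 : (S' : Subgroup Cz) = (S : Subgroup G).subgroupOf Cz := Sylow.coe_subtype S hSCz
    rw [h1, ← Subgroup.subgroupOf_normalizer_eq hSCz, ← hH]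
    exact Nat.card_congr (Subgroup.subgroupOfEquivOfLe hHCz).toEquiv
  rw [e3] at e1
  have e4 : Nat.card Cz ∣ 7920 := by rw [← hG]; exact Subgroup.card_subgroup_dvd_card Cz
  have hcases : Nat.card (Sylow 11 Cz) = 1 ∨ Nat.card (Sylow 11 Cz) = 45 := by
    have h1 : Nat.card (Sylow 11 Cz) * 176 ∣ 45 * 176 := by rw [e1]; exact e4
    have h2 : Nat.card (Sylow 11 Cz) ∣ 45 := Nat.dvd_of_mul_dvd_mul_right (by norm_num) h1
    exact num_aux45 _ h2 e2
  have hCzH : Cz = H := by
    rcases hcases with hc | hc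
    · rw [hc] at e1
      exact (Subgroup.eq_of_le_of_card_ge hHCz (by rw [hH]; omega)).symm
    · exfalso
      rw [hc] at e1
      have htop : Cz = ⊤ := Subgroup.eq_top_of_card_eq Cz (by rw [hG]; omega)
      have hcen : ∀ g : G, g * (z' : G) = (z' : G) * g := by
        intro g
        have hg : g ∈ Cz := by rw [htop]; exact mem_top g
        rw [hCzdef, mem_centralizer_iff] at hg
        exact (hg _ rfl).symm
      have hn : (zpowers (z' : G)).Normal := by
        refine ⟨fun n hn g => ?_⟩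
        have hgn : g * n = n * g := by
          obtain ⟨k, rfl⟩ := mem_zpowers_iff.mp hn
          exact ((Commute.zpow_right (hcen g) k)).eq
        rw [hgn, mul_inv_cancel_right]
        exact hn
      have hle : zpowers (z' : G) ≤ normalizer ((S : Subgroup G) : Set G) := by
        rw [zpowers_le]; exact hPH z'.2
      have hb := eq_bot_of_normal_of_le_normalizer hG h45 CI S (zpowers (z' : G)) hle
      have h1 : (z' : G) = 1 := by
        have : (z' : G) ∈ zpowers (z' : G) := mem_zpowers _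
        rw [hb] at this
        exact mem_bot.mp this
      rw [h1, orderOf_one] at hz2
      omega
  exact ⟨P, S, (z' : G), hz2, z'.2, hPH, hCzH, hT0card⟩


end Order7920

section Fusion

variable [Finite G] (S : Sylow 11 G) (z : G)

/-- A conjugate of `z` commuting with a non-trivial element of `S` is `z` itself, when
`C_G(z) = N_G(S)`. -/
theorem conj_eq_of_commute (hS11 : Nat.card (S : Subgroup G) = 11)
    (hCz : centralizer ({z} : Set G) = normalizer ((S : Subgroup G) : Set G))
    {s : G} (hs : s ∈ (S : Subgroup G)) (hs1 : s ≠ 1) {k : G} (hk : IsConj z k)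
    (hc : Commute s k) : k = z := by
  have hp11 : Fact (Nat.Prime 11) := ⟨by norm_num⟩
  have hp : Nat.Prime 11 := by norm_num
  obtain ⟨g, rfl⟩ := isConj_iff.mp hk
  set y : G := g⁻¹ * s * g with hy
  have hyz : Commute y z := by
    have h := hc.map (MulAut.conj g⁻¹)
    simp only [MulAut.conj_apply, inv_inv] at h
    have e : g⁻¹ * (g * z * g⁻¹) * g = z := by group
    rw [e] at h
    exact h
  have hyH : y ∈ normalizer ((S : Subgroup G) : Set G) := by
    rw [← hCz]
    exact mem_centralizer_singleton_comm.mpr hyz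
  have hso : orderOf s = 11 :=
    Cfsg.Agent.Lib.Helper17.orderOf_eq_of_mem_of_card_prime hp (S : Subgroup G) hS11 s hs hs1
  have hyo : orderOf y = 11 := by
    have h1 : y = (MulAut.conj g⁻¹) s := by simp [hy]
    rw [h1, MulEquiv.orderOf_eq, hso]
  have hyS : y ∈ (S : Subgroup G) :=
    Cfsg.Agent.Lib.Helper17.mem_sylow_of_mem_normalizer_of_orderOf 11 S y hyH 1
      (by rw [hyo, pow_one])
  have hzs : zpowers s = (S : Subgroup G) :=
    Cfsg.Agent.Lib.Helper17.zpowers_eq_of_mem_of_card_prime hp (S : Subgroup G) hS11 s hs hs1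
  have hgN : g⁻¹ ∈ normalizer ((S : Subgroup G) : Set G) := by
    apply Cfsg.Agent.Lib.Helper69.mem_normalizer_of_conj_mem
    intro u hu
    rw [← hzs] at hu
    obtain ⟨n, rfl⟩ := mem_zpowers_iff.mp hu
    have e : g⁻¹ * s ^ n * g⁻¹⁻¹ = y ^ n := by
      rw [hy, ← conj_zpow, inv_inv]
    rw [e]
    exact (S : Subgroup G).zpow_mem hyS n
  rw [← hCz] at hgN
  have h1 : Commute g⁻¹ z := mem_centralizer_singleton_comm.mp hgN
  calc g * z * g⁻¹ = g * (z * g⁻¹) := by group
    _ = g * (g⁻¹ * z) := by rw [h1.eq]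
    _ = z := by group

theorem eq_one_of_commute_mul (hS11 : Nat.card (S : Subgroup G) = 11)
    (hCz : centralizer ({z} : Set G) = normalizer ((S : Subgroup G) : Set G))
    {s d : G} (hs : s ∈ (S : Subgroup G)) (hd16 : d ^ 16 = 1) (hsd : Commute s d) {k : G}
    (hk : IsConj z k) (hne : k ≠ z) (hc : Commute (s * d) k) : s = 1 := by
  have h1 : (s * d) ^ 16 = s ^ 16 := by rw [hsd.mul_pow, hd16, mul_one]
  have h2 : Commute (s ^ 16) k := by rw [← h1]; exact hc.pow_left 16
  have h3 : s ^ 16 = 1 := by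
    by_contra h
    exact hne (conj_eq_of_commute S z hS11 hCz ((S : Subgroup G).pow_mem hs 16) h hk h2)
  have h4 : orderOf s ∣ 16 := orderOf_dvd_of_pow_eq_one h3
  have h5 : orderOf s ∣ 11 := by
    have := Subgroup.orderOf_dvd_natCard (S : Subgroup G) hs
    rwa [hS11] at this
  have h6 : orderOf s ∣ Nat.gcd 16 11 := Nat.dvd_gcd h4 h5
  have h7 : Nat.gcd 16 11 = 1 := by decide
  rw [h7, Nat.dvd_one] at h6
  exact orderOf_eq_one_iff.mp h6

variable (T0 : Subgroup G)

theorem commute_of_conj_eq (hS11 : Nat.card (S : Subgroup G) = 11)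
    (hCz : centralizer ({z} : Set G) = normalizer ((S : Subgroup G) : Set G))
    (hT0S : ∀ d ∈ T0, ∀ s ∈ (S : Subgroup G), Commute s d) (hT016 : ∀ d ∈ T0, d ^ 16 = 1)
    {d s : G} (hd : d ∈ T0) (hs : s ∈ (S : Subgroup G)) {k : G} (hk : IsConj z k) (hne : k ≠ z)
    (h : d * k * d⁻¹ = s * k * s⁻¹) : Commute d k := by
  have hc : Commute (s⁻¹ * d) k := by
    show s⁻¹ * d * k = k * (s⁻¹ * d)
    calc s⁻¹ * d * k = s⁻¹ * (d * k * d⁻¹) * d := by group
      _ = s⁻¹ * (s * k * s⁻¹) * d := by rw [h]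
      _ = k * (s⁻¹ * d) := by group
  have hs1 : s⁻¹ = 1 :=
    eq_one_of_commute_mul S z hS11 hCz ((S : Subgroup G).inv_mem hs) (hT016 d hd)
      (hT0S d hd s⁻¹ ((S : Subgroup G).inv_mem hs)) hk hne hc
  rw [hs1, one_mul] at hc
  exact hc

/-- The orbit of `k` under conjugation by `S`. -/
def orb (k : G) : Set G := (fun s => s * k * s⁻¹) '' ((S : Subgroup G) : Set G)

theorem ncard_orb (hS11 : Nat.card (S : Subgroup G) = 11)
    (hCz : centralizer ({z} : Set G) = normalizer ((S : Subgroup G) : Set G))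
    {k : G} (hk : IsConj z k) (hne : k ≠ z) : (orb S k).ncard = 11 := by
  have h1 : (((S : Subgroup G) : Set G)).ncard = 11 := by
    rw [← Nat.card_coe_set_eq]; exact hS11
  have hinj : Set.InjOn (fun s => s * k * s⁻¹) ((S : Subgroup G) : Set G) := by
    intro s hs s' hs' hss
    have hss' : s * k * s⁻¹ = s' * k * s'⁻¹ := hss
    have hc : Commute (s'⁻¹ * s) k := by
      show s'⁻¹ * s * k = k * (s'⁻¹ * s)
      calc s'⁻¹ * s * k = s'⁻¹ * (s * k * s⁻¹) * s := by group
        _ = s'⁻¹ * (s' * k * s'⁻¹) * s := by rw [hss']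
        _ = k * (s'⁻¹ * s) := by group
    by_contra hne'
    have h2 : s'⁻¹ * s ≠ 1 := by
      intro h
      apply hne'
      have : s = s' * (s'⁻¹ * s) := by group
      rw [this, h, mul_one]
    exact hne (conj_eq_of_commute S z hS11 hCz
      ((S : Subgroup G).mul_mem ((S : Subgroup G).inv_mem hs') hs) h2 hk hc)
  rw [orb, hinj.ncard_image, h1]

variable (W : Set G)

omit [Finite G] in
theorem orb_subset (hWS : ∀ k ∈ W, ∀ s ∈ (S : Subgroup G), s * k * s⁻¹ ∈ W) {k : G}
    (hk : k ∈ W) : orb S k ⊆ W := by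
  rintro _ ⟨s, hs, rfl⟩
  exact hWS k hk s hs

theorem diff_orb_eq (hS11 : Nat.card (S : Subgroup G) = 11)
    (hCz : centralizer ({z} : Set G) = normalizer ((S : Subgroup G) : Set G))
    (hWK : ∀ k ∈ W, IsConj z k ∧ k ≠ z)
    (hWS : ∀ k ∈ W, ∀ s ∈ (S : Subgroup G), s * k * s⁻¹ ∈ W) (hW22 : W.ncard = 22)
    {k0 k : G} (hk0 : k0 ∈ W) (hk : k ∈ W \ orb S k0) : W \ orb S k0 = orb S k := by
  have hsub : orb S k ⊆ W \ orb S k0 := by
    rintro _ ⟨s, hs, rfl⟩
    refine ⟨hWS k hk.1 s hs, ?_⟩
    rintro ⟨s', hs', hse⟩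
    have hse' : s' * k0 * s'⁻¹ = s * k * s⁻¹ := hse
    apply hk.2
    refine ⟨s⁻¹ * s', (S : Subgroup G).mul_mem ((S : Subgroup G).inv_mem hs) hs', ?_⟩
    show s⁻¹ * s' * k0 * (s⁻¹ * s')⁻¹ = k
    calc s⁻¹ * s' * k0 * (s⁻¹ * s')⁻¹ = s⁻¹ * (s' * k0 * s'⁻¹) * s := by group
      _ = s⁻¹ * (s * k * s⁻¹) * s := by rw [hse']
      _ = k := by group
  have h1 : (orb S k0).ncard = 11 := ncard_orb S z hS11 hCz (hWK k0 hk0).1 (hWK k0 hk0).2
  have h2 : (orb S k).ncard = 11 := ncard_orb S z hS11 hCz (hWK k hk.1).1 (hWK k hk.1).2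
  have h3 : (W \ orb S k0).ncard = 11 := by
    rw [Set.ncard_sdiff (orb_subset S W hWS hk0), hW22, h1]
  exact (Set.eq_of_subset_of_ncard_le hsub (by rw [h2, h3])).symm

theorem commute_all (hS11 : Nat.card (S : Subgroup G) = 11)
    (hCz : centralizer ({z} : Set G) = normalizer ((S : Subgroup G) : Set G))
    (hT0S : ∀ d ∈ T0, ∀ s ∈ (S : Subgroup G), Commute s d) (hT016 : ∀ d ∈ T0, d ^ 16 = 1)
    (hWK : ∀ k ∈ W, IsConj z k ∧ k ≠ z)
    (hWS : ∀ k ∈ W, ∀ s ∈ (S : Subgroup G), s * k * s⁻¹ ∈ W)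
    (hWT : ∀ k ∈ W, ∀ d ∈ T0, d * k * d⁻¹ ∈ W) (hW22 : W.ncard = 22)
    {d k0 : G} (hd : d ∈ T0) (hk0 : k0 ∈ W) (hdk0 : Commute d k0) :
    ∀ k ∈ W, Commute d k := by
  intro k hk
  have hcs : ∀ s ∈ (S : Subgroup G), Commute d (s * k0 * s⁻¹) := by
    intro s hs
    have hsd := hT0S d hd s hs
    exact (hsd.symm.mul_right hdk0).mul_right hsd.symm.inv_right
  by_cases hko : k ∈ orb S k0
  · obtain ⟨s, hs, rfl⟩ := hko
    exact hcs s hs
  · have hdiff := diff_orb_eq S z W hS11 hCz hWK hWS hW22 hk0 ⟨hk, hko⟩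
    have h1 : d * k * d⁻¹ ∈ W := hWT k hk d hd
    have h2 : d * k * d⁻¹ ∉ orb S k0 := by
      rintro ⟨s, hs, hse⟩
      have hse' : s * k0 * s⁻¹ = d * k * d⁻¹ := hse
      apply hko
      refine ⟨s, hs, ?_⟩
      show s * k0 * s⁻¹ = k
      calc s * k0 * s⁻¹ = d⁻¹ * (d * (s * k0 * s⁻¹)) := by group
        _ = d⁻¹ * ((s * k0 * s⁻¹) * d) := by rw [(hcs s hs).eq]
        _ = d⁻¹ * ((d * k * d⁻¹) * d) := by rw [hse']
        _ = k := by group
    have h3 : d * k * d⁻¹ ∈ orb S k := by rw [← hdiff]; exact ⟨h1, h2⟩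
    obtain ⟨s, hs, hse⟩ := h3
    have hse' : s * k * s⁻¹ = d * k * d⁻¹ := hse
    exact commute_of_conj_eq S z T0 hS11 hCz hT0S hT016 hd hs (hWK k hk).1 (hWK k hk).2 hse'.symm

theorem relIndex_stab_dvd_two (hS11 : Nat.card (S : Subgroup G) = 11)
    (hCz : centralizer ({z} : Set G) = normalizer ((S : Subgroup G) : Set G))
    (hT0S : ∀ d ∈ T0, ∀ s ∈ (S : Subgroup G), Commute s d) (hT016 : ∀ d ∈ T0, d ^ 16 = 1)
    (hWK : ∀ k ∈ W, IsConj z k ∧ k ≠ z)
    (hWS : ∀ k ∈ W, ∀ s ∈ (S : Subgroup G), s * k * s⁻¹ ∈ W)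
    (hWT : ∀ k ∈ W, ∀ d ∈ T0, d * k * d⁻¹ ∈ W) (hW22 : W.ncard = 22)
    {k0 : G} (hk0 : k0 ∈ W) : (T0 ⊓ centralizer ({k0} : Set G)).relIndex T0 ∣ 2 := by
  rw [Subgroup.relIndex_dvd_two_iff]
  have hk0c := (hWK k0 hk0).1
  have hk0ne := (hWK k0 hk0).2
  by_cases hall : ∀ b ∈ T0, Commute b k0
  · exact ⟨1, one_mem _, fun b hb =>
      Or.inr (mem_inf.mpr ⟨hb, mem_centralizer_singleton_comm.mpr (hall b hb)⟩)⟩
  · obtain ⟨d0, hd0⟩ := not_forall.mp hall
    obtain ⟨hd0T, hd0c⟩ := Classical.not_imp.mp hd0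
    refine ⟨d0⁻¹, inv_mem hd0T, fun b hb => ?_⟩
    by_cases hbc : Commute b k0
    · exact Or.inr (mem_inf.mpr ⟨hb, mem_centralizer_singleton_comm.mpr hbc⟩)
    · left
      refine mem_inf.mpr ⟨mul_mem hb (inv_mem hd0T), mem_centralizer_singleton_comm.mpr ?_⟩
      -- the conjugates of `k0` by `b⁻¹` and `d0⁻¹` lie outside the orbit of `k0`
      have key : ∀ e ∈ T0, ¬ Commute e k0 → e⁻¹ * k0 * e ∈ W \ orb S k0 := by
        intro e he hec
        have h1 : e⁻¹ * k0 * e ∈ W := by
          have := hWT k0 hk0 e⁻¹ (inv_mem he)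
          rwa [inv_inv] at this
        refine ⟨h1, ?_⟩
        rintro ⟨s, hs, hse⟩
        have hse' : s * k0 * s⁻¹ = e⁻¹ * k0 * e := hse
        have h2 : Commute e⁻¹ k0 :=
          commute_of_conj_eq S z T0 hS11 hCz hT0S hT016 (inv_mem he) hs hk0c hk0ne
            (by rw [inv_inv]; exact hse'.symm)
        apply hec
        have h3 := h2.inv_left
        rwa [inv_inv] at h3
      have hb1 := key b hb hbc
      have hd1 := key d0 hd0T hd0c
      have hdiff := diff_orb_eq S z W hS11 hCz hWK hWS hW22 hk0 hb1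
      have h3 : d0⁻¹ * k0 * d0 ∈ orb S (b⁻¹ * k0 * b) := by rw [← hdiff]; exact hd1
      obtain ⟨s, hs, hse⟩ := h3
      have hse' : s * (b⁻¹ * k0 * b) * s⁻¹ = d0⁻¹ * k0 * d0 := hse
      have hsb := hT0S b hb s hs
      have hbs : b * s * b⁻¹ = s := by rw [← hsb.eq, mul_inv_cancel_right]
      have hkey : (b * d0⁻¹) * k0 * (b * d0⁻¹)⁻¹ = s * k0 * s⁻¹ := by
        calc (b * d0⁻¹) * k0 * (b * d0⁻¹)⁻¹ = b * (d0⁻¹ * k0 * d0) * b⁻¹ := by group
          _ = b * (s * (b⁻¹ * k0 * b) * s⁻¹) * b⁻¹ := by rw [hse']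
          _ = (b * s * b⁻¹) * k0 * (b * s * b⁻¹)⁻¹ := by group
          _ = s * k0 * s⁻¹ := by rw [hbs]
      exact commute_of_conj_eq S z T0 hS11 hCz hT0S hT016 (mul_mem hb (inv_mem hd0T)) hs
        hk0c hk0ne hkey


end Fusion

section Isolation

theorem isConj_conj_of_commute {z h k : G} (hk : IsConj z k) : IsConj z (h * k * h⁻¹) := by
  obtain ⟨c, rfl⟩ := isConj_iff.mp hk
  exact isConj_iff.mpr ⟨h * c, by group⟩

theorem conj_eq_iff_of_commute {z h k : G} (hz : Commute h z) : h * k * h⁻¹ = z ↔ k = z := by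
  constructor
  · intro e
    calc k = h⁻¹ * (h * k * h⁻¹) * h := by group
      _ = h⁻¹ * z * h := by rw [e]
      _ = h⁻¹ * (z * h) := by group
      _ = h⁻¹ * (h * z) := by rw [hz.eq]
      _ = z := by group
  · rintro rfl
    rw [hz.eq, mul_inv_cancel_right]

theorem commute_conj_iff_of_commute {z h k : G} (hz : Commute h z) :
    Commute (h * k * h⁻¹) z ↔ Commute k z := by
  have e : h * z * h⁻¹ = z := by rw [hz.eq, mul_inv_cancel_right]
  constructor
  · intro hc
    have h1 := hc.map (MulAut.conj h⁻¹)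
    simp only [MulAut.conj_apply, inv_inv] at h1
    have e1 : h⁻¹ * (h * k * h⁻¹) * h = k := by group
    have e2 : h⁻¹ * z * h = z := by
      calc h⁻¹ * z * h = h⁻¹ * (z * h) := by group
        _ = h⁻¹ * (h * z) := by rw [hz.eq]
        _ = z := by group
    rwa [e1, e2] at h1
  · intro hc
    have h1 := hc.map (MulAut.conj h)
    simp only [MulAut.conj_apply] at h1
    rwa [e] at h1

variable [Finite G]

/-- The central involution `z` of the set-up commutes with none of its other conjugates. -/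
theorem conj_eq_of_commute_self (hG : Nat.card G = 7920) (h45 : Nat.card (Sylow 11 G) = 45)
    (CI : ∀ M : Subgroup G, M.Normal → M ≠ ⊥ → 11 ∣ Nat.card M)
    (P : Sylow 2 G) (S : Sylow 11 G) (z : G) (hz2 : orderOf z = 2)
    (hPH : (P : Subgroup G) ≤ normalizer ((S : Subgroup G) : Set G))
    (hCz : centralizer ({z} : Set G) = normalizer ((S : Subgroup G) : Set G))
    (hT0 : 8 ≤ Nat.card ((P : Subgroup G) ⊓ centralizer ((S : Subgroup G) : Set G) : Subgroup G))
    {k : G} (hk : IsConj z k) (hkz : Commute k z) : k = z := by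
  have hp11 : Fact (Nat.Prime 11) := ⟨by norm_num⟩
  have hS11 := card_sylow_eleven hG S
  have hP16 := card_sylow_two hG P
  by_contra hkne
  -- the three parts of the conjugacy class
  set K : Set G := {k | IsConj z k} with hKdef
  set K1 : Set G := {k | IsConj z k ∧ k ≠ z ∧ Commute k z} with hK1def
  set K2 : Set G := {k | IsConj z k ∧ ¬ Commute k z} with hK2def
  have hKcard : K.ncard = 45 := by
    have h1 := Cfsg.Agent.Lib.Helper17.card_isConj_mul_card_centralizer z
    rw [hCz, card_normalizer_eleven hG h45 S, hG] at h1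
    have h2 : Nat.card {h : G // IsConj z h} = K.ncard := Nat.card_coe_set_eq K
    rw [h2] at h1
    omega
  have hKsplit : K = insert z (K1 ∪ K2) := by
    ext k
    simp only [hKdef, hK1def, hK2def, Set.mem_ofPred_eq, Set.mem_insert_iff, Set.mem_union]
    constructor
    · intro hk
      by_cases h1 : k = z
      · exact Or.inl h1
      · by_cases h2 : Commute k z
        · exact Or.inr (Or.inl ⟨hk, h1, h2⟩)
        · exact Or.inr (Or.inr ⟨hk, h2⟩)
    · rintro (rfl | ⟨h, -, -⟩ | ⟨h, -⟩)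
      · exact IsConj.refl _
      · exact h
      · exact h
  have hdisj : Disjoint K1 K2 := by
    rw [Set.disjoint_left]
    rintro k ⟨-, -, h1⟩ ⟨-, h2⟩
    exact h2 h1
  have hznot : z ∉ K1 ∪ K2 := by
    rintro (⟨-, h, -⟩ | ⟨-, h⟩)
    · exact h rfl
    · exact h (Commute.refl z)
  have hsum : K1.ncard + K2.ncard = 44 := by
    have h1 : K.ncard = (K1 ∪ K2).ncard + 1 := by
      rw [hKsplit, Set.ncard_insert_of_notMem hznot]
    rw [Set.ncard_union_eq hdisj] at h1
    omega
  -- a generator of `S`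
  have hSne : (S : Subgroup G) ≠ ⊥ := by
    rw [← Subgroup.one_lt_card_iff_ne_bot, hS11]; norm_num
  obtain ⟨x', hx'⟩ := (Subgroup.ne_bot_iff_exists_ne_one).mp hSne
  have hxS : (x' : G) ∈ (S : Subgroup G) := x'.2
  have hx1 : (x' : G) ≠ 1 := fun h => hx' (Subtype.ext h)
  have hx11 : (x' : G) ^ 11 = 1 := by
    have h := Subgroup.orderOf_dvd_natCard (S : Subgroup G) hxS
    rw [hS11] at h
    exact orderOf_dvd_iff_pow_eq_one.mp h
  have hSH : (S : Subgroup G) ≤ normalizer ((S : Subgroup G) : Set G) := Subgroup.le_normalizer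
  have hcomH : ∀ h ∈ normalizer ((S : Subgroup G) : Set G), Commute h z := by
    intro h hh
    rw [← hCz] at hh
    exact mem_centralizer_singleton_comm.mp hh
  -- invariance of `K1`, `K2` under `H`
  have hK1inv : ∀ k ∈ K1, ∀ h ∈ normalizer ((S : Subgroup G) : Set G), h * k * h⁻¹ ∈ K1 := by
    rintro k ⟨hk1, hk2, hk3⟩ h hh
    refine ⟨isConj_conj_of_commute hk1, ?_, (commute_conj_iff_of_commute (hcomH h hh)).mpr hk3⟩
    intro e
    exact hk2 ((conj_eq_iff_of_commute (hcomH h hh)).mp e)
  have hK2inv : ∀ k ∈ K2, ∀ h ∈ normalizer ((S : Subgroup G) : Set G), h * k * h⁻¹ ∈ K2 := by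
    rintro k ⟨hk1, hk2⟩ h hh
    refine ⟨isConj_conj_of_commute hk1, ?_⟩
    intro e
    exact hk2 ((commute_conj_iff_of_commute (hcomH h hh)).mp e)
  have hK1K : ∀ k ∈ K1, IsConj z k ∧ k ≠ z := fun k hk => ⟨hk.1, hk.2.1⟩
  have hK2K : ∀ k ∈ K2, IsConj z k ∧ k ≠ z := by
    rintro k ⟨hk1, hk2⟩
    refine ⟨hk1, ?_⟩
    rintro rfl
    exact hk2 (Commute.refl _)
  -- freeness
  have hfreeS : ∀ k : G, IsConj z k → k ≠ z → (x' : G) * k * (x' : G)⁻¹ ≠ k := by
    intro k hk1 hk2 e
    have hc : Commute (x' : G) k := by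
      show (x' : G) * k = k * (x' : G)
      calc (x' : G) * k = (x' : G) * k * (x' : G)⁻¹ * (x' : G) := by group
        _ = k * (x' : G) := by rw [e]
    exact hk2 (conj_eq_of_commute S z hS11 hCz hxS hx1 hk1 hc)
  have h11K1 : 11 ∣ K1.ncard :=
    dvd_ncard_of_free_conj 11 K1 (x' : G) hx11 (fun k hk => hK1inv k hk _ (hSH hxS))
      (fun k hk => hfreeS k (hK1K k hk).1 (hK1K k hk).2)
  have h11K2 : 11 ∣ K2.ncard :=
    dvd_ncard_of_free_conj 11 K2 (x' : G) hx11 (fun k hk => hK2inv k hk _ (hSH hxS))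
      (fun k hk => hfreeS k (hK2K k hk).1 (hK2K k hk).2)
  have hzH : z ∈ normalizer ((S : Subgroup G) : Set G) := by
    rw [← hCz]; exact mem_centralizer_singleton_comm.mpr (Commute.refl z)
  have hzz : z ^ 2 = 1 := by rw [← hz2]; exact pow_orderOf_eq_one z
  have h2K2 : 2 ∣ K2.ncard := by
    refine dvd_ncard_of_free_conj 2 K2 z hzz (fun k hk => hK2inv k hk _ hzH) ?_
    rintro k ⟨-, hk2⟩ e
    apply hk2
    show k * z = z * k
    calc k * z = z * k * z⁻¹ * z := by rw [e]
      _ = z * k := by group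
  have hkK1 : k ∈ K1 := ⟨hk, hkne, hkz⟩
  have hK1pos : 0 < K1.ncard := by
    rw [Set.ncard_pos]; exact ⟨k, hkK1⟩
  have hcases : (K1.ncard = 44 ∧ K2.ncard = 0) ∨ (K1.ncard = 22 ∧ K2.ncard = 22) := by
    omega
  rcases hcases with ⟨-, hK20⟩ | ⟨hK1c, hK2c⟩
  · -- every conjugate commutes with `z`
    have hK2e : K2 = ∅ := by
      rwa [Set.ncard_eq_zero] at hK20
    have hle : normalClosure ({z} : Set G) ≤ normalizer ((S : Subgroup G) : Set G) := by
      rw [← hCz]
      change closure (Group.conjugatesOfSet {z}) ≤ _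
      rw [closure_le]
      intro a ha
      rw [Group.mem_conjugatesOfSet_iff] at ha
      obtain ⟨b, hb, hba⟩ := ha
      rw [Set.mem_singleton_iff] at hb
      subst hb
      by_contra hnc
      have : a ∈ K2 := ⟨hba, fun hc => hnc (mem_centralizer_singleton_comm.mpr hc)⟩
      rw [hK2e] at this
      exact this
    have hb := eq_bot_of_normal_of_le_normalizer hG h45 CI S (normalClosure ({z} : Set G)) hle
    have hz1 : z ∈ normalClosure ({z} : Set G) := subset_normalClosure rfl
    rw [hb, mem_bot] at hz1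
    rw [hz1, orderOf_one] at hz2
    omega
  · -- two orbits each
    set T0 : Subgroup G := (P : Subgroup G) ⊓ centralizer ((S : Subgroup G) : Set G) with hT0def
    have hT0S : ∀ d ∈ T0, ∀ s ∈ (S : Subgroup G), Commute s d := by
      intro d hd s hs
      have h := (mem_inf.mp hd).2
      rw [mem_centralizer_iff] at h
      exact h s hs
    have hT016 : ∀ d ∈ T0, d ^ 16 = 1 := by
      intro d hd
      have h := Subgroup.orderOf_dvd_natCard (P : Subgroup G) (mem_inf.mp hd).1
      rw [hP16] at h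
      exact orderOf_dvd_iff_pow_eq_one.mp h
    have hT0H : T0 ≤ normalizer ((S : Subgroup G) : Set G) := inf_le_left.trans hPH
    have hK2ne : K2.Nonempty := by
      rw [← Set.ncard_pos, hK2c]; norm_num
    obtain ⟨q, hq⟩ := hK2ne
    have hA := relIndex_stab_dvd_two S z T0 K1 hS11 hCz hT0S hT016 hK1K
      (fun k hk s hs => hK1inv k hk s (hSH hs)) (fun k hk d hd => hK1inv k hk d (hT0H hd))
      hK1c hkK1
    have hB := relIndex_stab_dvd_two S z T0 K2 hS11 hCz hT0S hT016 hK2K
      (fun k hk s hs => hK2inv k hk s (hSH hs)) (fun k hk d hd => hK2inv k hk d (hT0H hd))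
      hK2c hq
    set A : Subgroup G := T0 ⊓ centralizer ({k} : Set G) with hAdef
    set B : Subgroup G := T0 ⊓ centralizer ({q} : Set G) with hBdef
    have hA2 : A.relIndex T0 ≤ 2 := Nat.le_of_dvd (by norm_num) hA
    have hB2 : B.relIndex T0 ≤ 2 := Nat.le_of_dvd (by norm_num) hB
    have hD4 : (A ⊓ B).relIndex T0 ≤ 4 :=
      (Subgroup.relIndex_inf_le).trans (by nlinarith)
    have hDle : A ⊓ B ≤ T0 := inf_le_left.trans inf_le_left
    have hDcard := relIndex_mul_card_of_le hDle
    have hD2 : 1 < Nat.card (A ⊓ B : Subgroup G) := by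
      by_contra hlt
      have h1 : Nat.card (A ⊓ B : Subgroup G) ≤ 1 := by omega
      have h2 : (A ⊓ B).relIndex T0 * Nat.card (A ⊓ B : Subgroup G) ≤ 4 * 1 :=
        Nat.mul_le_mul hD4 h1
      rw [hDcard] at h2
      omega
    have hDne : A ⊓ B ≠ ⊥ := (Subgroup.one_lt_card_iff_ne_bot _).mp hD2
    obtain ⟨d', hd'⟩ := (Subgroup.ne_bot_iff_exists_ne_one).mp hDne
    have hd1 : (d' : G) ≠ 1 := fun h => hd' (Subtype.ext h)
    have hdA : (d' : G) ∈ A := (mem_inf.mp d'.2).1
    have hdB : (d' : G) ∈ B := (mem_inf.mp d'.2).2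
    have hdT0 : (d' : G) ∈ T0 := (mem_inf.mp hdA).1
    have hdk : Commute (d' : G) k := mem_centralizer_singleton_comm.mp (mem_inf.mp hdA).2
    have hdq : Commute (d' : G) q := mem_centralizer_singleton_comm.mp (mem_inf.mp hdB).2
    have hall1 := commute_all S z T0 K1 hS11 hCz hT0S hT016 hK1K
      (fun k hk s hs => hK1inv k hk s (hSH hs)) (fun k hk d hd => hK1inv k hk d (hT0H hd))
      hK1c hdT0 hkK1 hdk
    have hall2 := commute_all S z T0 K2 hS11 hCz hT0S hT016 hK2K
      (fun k hk s hs => hK2inv k hk s (hSH hs)) (fun k hk d hd => hK2inv k hk d (hT0H hd))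
      hK2c hdT0 hq hdq
    have hdz : Commute (d' : G) z := hcomH _ (hT0H hdT0)
    have hall : ∀ a : G, IsConj z a → Commute (d' : G) a := by
      intro a ha
      have haK : a ∈ K := ha
      rw [hKsplit] at haK
      rcases haK with rfl | h | h
      · exact hdz
      · exact hall1 a h
      · exact hall2 a h
    -- `d'` centralizes the normal closure of `z`
    have hdM : (d' : G) ∈ centralizer ((normalClosure ({z} : Set G) : Subgroup G) : Set G) := by
      have hle : normalClosure ({z} : Set G) ≤ centralizer ({(d' : G)} : Set G) := by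
        change closure (Group.conjugatesOfSet {z}) ≤ _
        rw [closure_le]
        intro a ha
        rw [Group.mem_conjugatesOfSet_iff] at ha
        obtain ⟨b, hb, hba⟩ := ha
        rw [Set.mem_singleton_iff] at hb
        subst hb
        exact mem_centralizer_singleton_comm.mpr (hall a hba).symm
      rw [mem_centralizer_iff]
      intro m hm
      exact (mem_centralizer_singleton_comm.mp (hle hm)).eq
    have hMle : centralizer ((normalClosure ({z} : Set G) : Subgroup G) : Set G) ≤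
        normalizer ((S : Subgroup G) : Set G) := by
      rw [← hCz]
      exact Subgroup.centralizer_le (Set.singleton_subset_iff.mpr (subset_normalClosure rfl))
    have hb := eq_bot_of_normal_of_le_normalizer hG h45 CI S
      (centralizer ((normalClosure ({z} : Set G) : Subgroup G) : Set G)) hMle
    rw [hb, mem_bot] at hdM
    exact hd1 hdM


end Isolation

section Final

variable [Finite G]

theorem sylow_eleven_comm (hG : Nat.card G = 7920) (S : Sylow 11 G) :
    ∀ a ∈ (S : Subgroup G), ∀ b ∈ (S : Subgroup G), a * b = b * a := by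
  have hp : Nat.Prime 11 := by norm_num
  have hS11 := card_sylow_eleven hG S
  have hSne : (S : Subgroup G) ≠ ⊥ := by
    rw [← Subgroup.one_lt_card_iff_ne_bot, hS11]; norm_num
  obtain ⟨x', hx'⟩ := (Subgroup.ne_bot_iff_exists_ne_one).mp hSne
  have hx1 : (x' : G) ≠ 1 := fun h => hx' (Subtype.ext h)
  have hzs : zpowers (x' : G) = (S : Subgroup G) :=
    Cfsg.Agent.Lib.Helper17.zpowers_eq_of_mem_of_card_prime hp (S : Subgroup G) hS11 _ x'.2 hx1
  intro a ha b hb
  rw [← hzs] at ha hb
  obtain ⟨i, rfl⟩ := mem_zpowers_iff.mp ha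
  obtain ⟨j, rfl⟩ := mem_zpowers_iff.mp hb
  exact ((Commute.refl (x' : G)).zpow_zpow i j).eq

omit [Finite G] in
theorem normal_zpowers_of_central {z : G} (hcen : ∀ g : G, g * z = z * g) :
    (zpowers z).Normal := by
  refine ⟨fun n hn g => ?_⟩
  have hgn : g * n = n * g := by
    obtain ⟨k, rfl⟩ := mem_zpowers_iff.mp hn
    exact ((Commute.zpow_right (hcen g) k)).eq
  rw [hgn, mul_inv_cancel_right]
  exact hn

/-- A group of order `7920` in which every non-trivial normal subgroup has order divisible by `11`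
does not have exactly `45` Sylow `11`-subgroups. -/
theorem caseII_45 (hG : Nat.card G = 7920) (h45 : Nat.card (Sylow 11 G) = 45)
    (CI : ∀ M : Subgroup G, M.Normal → M ≠ ⊥ → 11 ∣ Nat.card M) : False := by
  have hp11 : Fact (Nat.Prime 11) := ⟨by norm_num⟩
  obtain ⟨P, S, z, hz2, hzP, hPH, hCz, hT0⟩ := exists_setup hG h45 CI
  have hS11 := card_sylow_eleven hG S
  have hH := card_normalizer_eleven hG h45 S
  have hiso : ∀ g : G, g * z * g⁻¹ ∈ (P : Subgroup G) → g * z * g⁻¹ = z := by
    intro g hg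
    have h1 : g * z * g⁻¹ ∈ centralizer ({z} : Set G) := by rw [hCz]; exact hPH hg
    exact conj_eq_of_commute_self hG h45 CI P S z hz2 hPH hCz hT0 (isConj_iff.mpr ⟨g, rfl⟩)
      (mem_centralizer_singleton_comm.mp h1)
  obtain ⟨N1, hN1n, hN1odd, hN1c⟩ := Cfsg.Agent.S0215.result P z hz2 hzP hiso
  have hzH : z ∈ normalizer ((S : Subgroup G) : Set G) := hPH hzP
  by_cases hb : N1 = ⊥
  · have hcen : ∀ g : G, g * z = z * g := by
      intro g
      have h := hN1c g
      rw [hb, mem_bot] at h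
      have h2 : z * g = g * z := by
        calc z * g = (z * g * z⁻¹ * g⁻¹) * (g * z) := by group
          _ = g * z := by rw [h, one_mul]
      exact h2.symm
    have hn : (zpowers z).Normal := normal_zpowers_of_central hcen
    have hle : zpowers z ≤ normalizer ((S : Subgroup G) : Set G) := by
      rw [zpowers_le]; exact hzH
    have hb' := eq_bot_of_normal_of_le_normalizer hG h45 CI S (zpowers z) hle
    have h1 : z = 1 := by
      have : z ∈ zpowers z := mem_zpowers _
      rw [hb'] at this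
      exact mem_bot.mp this
    rw [h1, orderOf_one] at hz2
    omega
  · have h11 := CI N1 hN1n hb
    have hSN := sylow_le_of_normal hG S N1 h11
    have hX : N1 ⊓ normalizer ((S : Subgroup G) : Set G) = (S : Subgroup G) := by
      symm
      apply Subgroup.eq_of_le_of_card_ge (le_inf hSN Subgroup.le_normalizer)
      have h1 : Nat.card (N1 ⊓ normalizer ((S : Subgroup G) : Set G) : Subgroup G) ∣ Nat.card N1 :=
        Subgroup.card_dvd_of_le inf_le_left
      have h2 : Nat.card (N1 ⊓ normalizer ((S : Subgroup G) : Set G) : Subgroup G) ∣ 16 * 11 := by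
        have h := Subgroup.card_dvd_of_le
          (inf_le_right : N1 ⊓ normalizer ((S : Subgroup G) : Set G) ≤ _)
        rwa [hH] at h
      have h3 : Odd (Nat.card (N1 ⊓ normalizer ((S : Subgroup G) : Set G) : Subgroup G)) :=
        hN1odd.of_dvd_nat h1
      have h4 : (Nat.card (N1 ⊓ normalizer ((S : Subgroup G) : Set G) : Subgroup G)).Coprime 16 :=
        Nat.Coprime.pow_right 4 (Nat.coprime_two_right.mpr h3)
      have h5 := h4.dvd_of_dvd_mul_left h2
      rw [hS11]
      exact Nat.le_of_dvd (by norm_num) h5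
    have hNC : N1 ⊓ normalizer ((S : Subgroup G) : Set G) ≤
        centralizer ((S : Subgroup G) : Set G) := by
      rw [hX]
      intro y hy
      rw [mem_centralizer_iff]
      intro h hh
      exact sylow_eleven_comm hG S h hh y hy
    obtain ⟨K', hK'n, hK'le, hK'card⟩ := burnside_normal N1 S hSN hNC
    rw [hS11] at hK'card
    by_cases hK'b : K' = ⊥
    · rw [hK'b, Subgroup.card_bot, one_mul] at hK'card
      have hN1S : (S : Subgroup G) = N1 :=
        Subgroup.eq_of_le_of_card_ge hSN (by rw [hS11, ← hK'card])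
      have hle : N1 ≤ normalizer ((S : Subgroup G) : Set G) := by
        rw [← hN1S]; exact Subgroup.le_normalizer
      exact hb (eq_bot_of_normal_of_le_normalizer hG h45 CI S N1 hle)
    · have h11' := CI K' hK'n hK'b
      have h121 : 11 * 11 ∣ Nat.card N1 := by
        rw [← hK'card]; exact Nat.mul_dvd_mul_right h11' 11
      have h7920 : Nat.card N1 ∣ 7920 := hG ▸ Subgroup.card_subgroup_dvd_card N1
      have h := h121.trans h7920
      omega

/-- A non-simple group of order `7920` in which every non-trivial normal subgroup has order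
divisible by `11` does not have exactly `144` Sylow `11`-subgroups. -/
theorem caseII_144 (hG : Nat.card G = 7920) (h144 : Nat.card (Sylow 11 G) = 144)
    (CI : ∀ M : Subgroup G, M.Normal → M ≠ ⊥ → 11 ∣ Nat.card M)
    (N : Subgroup G) (hN : N.Normal) (hbot : N ≠ ⊥) (htop : N ≠ ⊤) : False := by
  have hp11 : Fact (Nat.Prime 11) := ⟨by norm_num⟩
  let S : Sylow 11 G := Classical.arbitrary (Sylow 11 G)
  have hS11 := card_sylow_eleven hG S
  have hH : Nat.card (normalizer ((S : Subgroup G) : Set G)) = 55 := by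
    have h := Cfsg.Agent.Lib.Helper17.card_sylow_mul_card_normalizer 11 S
    rw [h144, hG] at h
    omega
  have h11 := CI N hN hbot
  have hSN := sylow_le_of_normal hG S N h11
  have htop' := Sylow.normalizer_sup_eq_top' S hSN
  have hidx : N.index = N.relIndex (normalizer ((S : Subgroup G) : Set G)) := by
    rw [← Subgroup.relIndex_top_right, ← htop', Subgroup.relIndex_sup_right]
    rfl
  have hXcard := relIndex_mul_card_of_le
    (inf_le_right : N ⊓ normalizer ((S : Subgroup G) : Set G) ≤ normalizer ((S : Subgroup G) : Set G))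
  rw [Subgroup.inf_relIndex_right, ← hidx, hH] at hXcard
  have hSX : (S : Subgroup G) ≤ N ⊓ normalizer ((S : Subgroup G) : Set G) :=
    le_inf hSN Subgroup.le_normalizer
  have h11X : 11 ∣ Nat.card (N ⊓ normalizer ((S : Subgroup G) : Set G) : Subgroup G) := by
    have h := Subgroup.card_dvd_of_le hSX
    rwa [hS11] at h
  have hidx1 : N.index ≠ 1 := fun h => htop (Subgroup.index_eq_one.mp h)
  have hcardN := Subgroup.card_mul_index N
  rw [hG] at hcardN
  -- `N.index * |X| = 55` with `11 ∣ |X|` and `N.index ≠ 1`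
  obtain ⟨c, hc⟩ := h11X
  rw [hc] at hXcard
  have hc1 : c = 1 := by
    have h5 : N.index * c = 5 := by
      have : 11 * (N.index * c) = 11 * 5 := by
        rw [show 11 * (N.index * c) = N.index * (11 * c) by ring, hXcard]
      exact Nat.eq_of_mul_eq_mul_left (by norm_num) this
    have h6 : c ∣ 5 := Dvd.intro_left _ h5
    rcases (Nat.dvd_prime (by norm_num : Nat.Prime 5)).mp h6 with h | h
    · exact h
    · exfalso
      rw [h] at h5
      have : N.index = 1 := by omega
      exact hidx1 this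
  rw [hc1, mul_one] at hc
  have hXS : N ⊓ normalizer ((S : Subgroup G) : Set G) = (S : Subgroup G) :=
    (Subgroup.eq_of_le_of_card_ge hSX (by rw [hS11, hc])).symm
  have hNC : N ⊓ normalizer ((S : Subgroup G) : Set G) ≤
      centralizer ((S : Subgroup G) : Set G) := by
    rw [hXS]
    intro y hy
    rw [mem_centralizer_iff]
    intro h hh
    exact sylow_eleven_comm hG S h hh y hy
  obtain ⟨K', hK'n, hK'le, hK'card⟩ := burnside_normal N S hSN hNC
  rw [hS11] at hK'card
  have hidx5 : N.index = 5 := by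
    rw [hc1, mul_one] at hXcard
    omega
  rw [hidx5] at hcardN
  have hK144 : Nat.card K' = 144 := by omega
  have hK'b : K' ≠ ⊥ := by
    intro h
    rw [h, Subgroup.card_bot] at hK144
    omega
  have h11' := CI K' hK'n hK'b
  rw [hK144] at h11'
  omega

end Final

end Cfsg.Agent.Lib.Helper52.PG7920
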