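import Mathlib
import Cfsg.Agent.Lib.Helper52.PG7920

/-!
Groups of order `7920` with a disconnected prime graph are simple: the prime graph tools, the
case of a normal subgroup of order prime to `11`, and the cases of `1` or `12` Sylow
`11`-subgroups.
-/

set_option autoImplicit false

namespace Cfsg.Agent.Lib.Helper52.PG7920

open Subgroup

variable {G : Type*} [Group G]

/-- Adjacency in the prime graph. -/
def Adj (G : Type*) [Group G] (p q : ℕ) : Prop := ∃ g : G, orderOf g = p * q

theorem Adj.symm {p q : ℕ} (h : Adj G p q) : Adj G q p := by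
  obtain ⟨g, hg⟩ := h
  exact ⟨g, by rw [hg, Nat.mul_comm]⟩

/-- Connectedness of the prime graph on `{2, 3, 5, 11}`. -/
def Conn (G : Type*) [Group G] : Prop :=
  ∀ A : Set ℕ, (∀ p q : ℕ, (p = 2 ∨ p = 3 ∨ p = 5 ∨ p = 11) → (q = 2 ∨ q = 3 ∨ q = 5 ∨ q = 11) →
    Adj G p q → (p ∈ A ↔ q ∈ A)) → (2 ∈ A ↔ 3 ∈ A) ∧ (2 ∈ A ↔ 5 ∈ A) ∧ (2 ∈ A ↔ 11 ∈ A)

theorem conn_of_three {a b c d e f : ℕ} (h1 : Adj G a b) (h2 : Adj G c d) (h3 : Adj G e f)
    (ha : a = 2 ∨ a = 3 ∨ a = 5 ∨ a = 11) (hb : b = 2 ∨ b = 3 ∨ b = 5 ∨ b = 11)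
    (hc : c = 2 ∨ c = 3 ∨ c = 5 ∨ c = 11) (hd : d = 2 ∨ d = 3 ∨ d = 5 ∨ d = 11)
    (he : e = 2 ∨ e = 3 ∨ e = 5 ∨ e = 11) (hf : f = 2 ∨ f = 3 ∨ f = 5 ∨ f = 11)
    (H : ∀ A : Set ℕ, (a ∈ A ↔ b ∈ A) → (c ∈ A ↔ d ∈ A) → (e ∈ A ↔ f ∈ A) →
      (2 ∈ A ↔ 3 ∈ A) ∧ (2 ∈ A ↔ 5 ∈ A) ∧ (2 ∈ A ↔ 11 ∈ A)) : Conn G :=
  fun A hA => H A (hA a b ha hb h1) (hA c d hc hd h2) (hA e f he hf h3)

theorem adj_of_commute {x y : G} {p q : ℕ} (hx : orderOf x = p) (hy : orderOf y = q)
    (hc : Commute x y) (hpq : Nat.Coprime p q) : Adj G p q :=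
  ⟨x * y, by
    rw [hc.orderOf_mul_eq_mul_orderOf_of_coprime (by rw [hx, hy]; exact hpq), hx, hy]⟩

/-- An element of prime order `q` normalizing an `r`-group `T` with `|T| ≢ 1 (mod q)` commutes with
an element of order `r`. -/
theorem adj_of_normalizes [Finite G] (q r : ℕ) [Fact q.Prime] [Fact r.Prime] (hqr : q ≠ r)
    (T : Subgroup G) (hT : IsPGroup r T) (x : G) (hxo : orderOf x = q)
    (hx : x ∈ normalizer (T : Set G)) (hmod : ¬ Nat.card T ≡ 1 [MOD q]) : Adj G q r := by
  obtain ⟨t, htT, ht1, hfix⟩ := Cfsg.Agent.Lib.Helper17.exists_fixed_conj q T x hx 1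
    (by rw [pow_one, ← hxo]; exact pow_orderOf_eq_one x) hmod
  have hc : Commute x t := by
    show x * t = t * x
    calc x * t = x * t * x⁻¹ * x := by group
      _ = t * x := by rw [hfix]
  have hpz : IsPGroup r (zpowers t) := hT.to_le (zpowers_le.mpr htT)
  have hne : zpowers t ≠ ⊥ := by
    rw [Ne, zpowers_eq_bot]; exact ht1
  have hr : r ∣ Nat.card (zpowers t) := by
    rcases hpz.card_eq_or_dvd with h | h
    · exact absurd (Subgroup.card_eq_one.mp h) hne
    · exact h
  obtain ⟨y, hy⟩ := exists_prime_orderOf_dvd_card' (G := zpowers t) r hr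
  have hyo : orderOf (y : G) = r := by rw [Subgroup.orderOf_coe]; exact hy
  obtain ⟨i, hi⟩ := mem_zpowers_iff.mp y.2
  have hcy : Commute x (y : G) := by rw [← hi]; exact hc.zpow_right i
  exact adj_of_commute hxo hyo hcy ((Nat.coprime_primes Fact.out Fact.out).mpr hqr)

/-- Frattini: the index of a normal subgroup `N` divides the order of the normalizer of a Sylow
subgroup of `N`. -/
theorem index_dvd_card_normalizer [Finite G] {r : ℕ} [Fact r.Prime] (N : Subgroup G) [N.Normal]
    (P : Sylow r N) :
    N.index ∣ Nat.card (normalizer (((P : Subgroup N).map N.subtype : Subgroup G) : Set G)) := by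
  have h := Sylow.normalizer_sup_eq_top P
  have h1 : N.index =
      N.relIndex (normalizer (((P : Subgroup N).map N.subtype : Subgroup G) : Set G)) := by
    rw [← Subgroup.relIndex_top_right, ← h, Subgroup.relIndex_sup_right]
  rw [h1]
  exact Subgroup.relIndex_dvd_card _ _

theorem adj_of_sylow [Finite G] (q r : ℕ) [Fact q.Prime] [Fact r.Prime] (hqr : q ≠ r)
    (N : Subgroup G) [N.Normal] (hq : q ∣ N.index) (P : Sylow r N)
    (hmod : ¬ Nat.card (P : Subgroup N) ≡ 1 [MOD q]) : Adj G q r := by
  set T : Subgroup G := (P : Subgroup N).map N.subtype with hTdef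
  have hTcard : Nat.card T = Nat.card (P : Subgroup N) :=
    card_map_of_injective N.subtype_injective
  have hq' : q ∣ Nat.card (normalizer (T : Set G)) := hq.trans (index_dvd_card_normalizer N P)
  obtain ⟨x', hx'⟩ := exists_prime_orderOf_dvd_card' (G := normalizer (T : Set G)) q hq'
  have hxo : orderOf (x' : G) = q := by rw [Subgroup.orderOf_coe]; exact hx'
  exact adj_of_normalizes q r hqr T (P.2.map N.subtype) (x' : G) hxo x'.2
    (by rw [hTcard]; exact hmod)

theorem sylow_card_spec [Finite G] {r : ℕ} [Fact r.Prime] (N : Subgroup G) (P : Sylow r N) :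
    ∃ k : ℕ, Nat.card (P : Subgroup N) = r ^ k ∧ r ^ k ∣ Nat.card N ∧
      (r ∣ Nat.card N → 0 < k) := by
  obtain ⟨k, hk⟩ := P.2.exists_card_eq
  refine ⟨k, hk, ?_, ?_⟩
  · rw [← hk]; exact Subgroup.card_subgroup_dvd_card _
  · intro hr
    by_contra h0
    have hk0 : k = 0 := by omega
    rw [hk0, pow_zero] at hk
    have h1 := Subgroup.card_mul_index (P : Subgroup N)
    rw [hk, one_mul] at h1
    exact P.not_dvd_index (h1 ▸ hr)

theorem pow_lt_of_dvd {r k : ℕ} (hr : 2 ≤ r) (h : r ^ k ∣ 7920) : k < 13 := by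
  by_contra hk
  have h1 : 2 ^ 13 ≤ r ^ k :=
    (Nat.pow_le_pow_right (by norm_num) (by omega : 13 ≤ k)).trans (Nat.pow_le_pow_left hr k)
  have h2 := Nat.le_of_dvd (by norm_num) h
  norm_num at h1
  omega

/-- The first fact in the form used below: `N` normal, `r ∣ |N|`, `q ∣ [G : N]` and no power
`r ^ k` dividing `7920` is `1` modulo `q`. -/
theorem adj_of_sylow' [Finite G] (hG : Nat.card G ∣ 7920) (q r : ℕ) [Fact q.Prime]
    [Fact r.Prime] (hqr : q ≠ r) (N : Subgroup G) [N.Normal] (hq : q ∣ N.index)
    (hrN : r ∣ Nat.card N)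
    (key : ∀ k < 13, 0 < k → r ^ k ∣ 7920 → ¬ r ^ k ≡ 1 [MOD q]) : Adj G q r := by
  have hr2 : 2 ≤ r := (Fact.out : r.Prime).two_le
  let P : Sylow r N := Classical.arbitrary _
  obtain ⟨k, hk, hdvd, hpos⟩ := sylow_card_spec N P
  have hd : r ^ k ∣ 7920 := hdvd.trans ((Subgroup.card_subgroup_dvd_card N).trans hG)
  exact adj_of_sylow q r hqr N hq P
    (by rw [hk]; exact key k (pow_lt_of_dvd hr2 hd) (hpos hrN) hd)

theorem adj_of_centralizer [Finite G] (q r : ℕ) [Fact q.Prime] [Fact r.Prime] (hqr : q ≠ r)
    (T : Subgroup G) (hq : q ∣ Nat.card (centralizer (T : Set G))) (hr : r ∣ Nat.card T) :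
    Adj G q r := by
  obtain ⟨y, hy⟩ := exists_prime_orderOf_dvd_card' (G := centralizer (T : Set G)) q hq
  obtain ⟨t, ht⟩ := exists_prime_orderOf_dvd_card' (G := T) r hr
  have hc : Commute (y : G) (t : G) := by
    have h := y.2
    rw [mem_centralizer_iff] at h
    exact (h t t.2).symm
  exact adj_of_commute (by rw [Subgroup.orderOf_coe]; exact hy)
    (by rw [Subgroup.orderOf_coe]; exact ht) hc
    ((Nat.coprime_primes Fact.out Fact.out).mpr hqr)

theorem card_centralizer_of_normal [Finite G] (N : Subgroup G) [hN : N.Normal] :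
    ∃ e : ℕ, Nat.card (centralizer (N : Set G)) * (Nat.card N).factorial = Nat.card G * e := by
  have h1 := Cfsg.Agent.Lib.Helper24.relIndex_dvd_factorial N
  rw [Subgroup.normalizer_eq_top, Subgroup.relIndex_top_right] at h1
  obtain ⟨e, he⟩ := h1
  refine ⟨e, ?_⟩
  have h2 := Subgroup.card_mul_index (centralizer (N : Set G))
  rw [he, ← h2]
  ring

theorem dvd_card_sub_card_inf_centralizer [Finite G] (p : ℕ) [Fact p.Prime] (T : Subgroup G)
    (x : G) (hx : x ∈ normalizer (T : Set G)) (hxp : x ^ p = 1) :
    p ∣ Nat.card T - Nat.card (T ⊓ centralizer ({x} : Set G) : Subgroup G) := by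
  have h := dvd_ncard_of_free_conj p ((T : Set G) \ (centralizer ({x} : Set G) : Set G)) x hxp
    (by
      rintro k ⟨hkT, hkC⟩
      refine ⟨(mem_normalizer_iff.mp hx k).mp hkT, ?_⟩
      intro hc
      apply hkC
      have h1 : Commute (x * k * x⁻¹) x := mem_centralizer_singleton_comm.mp hc
      apply mem_centralizer_singleton_comm.mpr
      show k * x = x * k
      calc k * x = x⁻¹ * (x * k * x⁻¹ * x) * x := by group
        _ = x⁻¹ * (x * (x * k * x⁻¹)) * x := by rw [h1.eq]
        _ = x * k := by group)
    (by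
      rintro k ⟨-, hkC⟩ e
      apply hkC
      apply mem_centralizer_singleton_comm.mpr
      show k * x = x * k
      calc k * x = x * k * x⁻¹ * x := by rw [e]
        _ = x * k := by group)
  have e1 : ((T : Set G) \ (centralizer ({x} : Set G) : Set G)) =
      (T : Set G) \ ((T ⊓ centralizer ({x} : Set G) : Subgroup G) : Set G) := by
    rw [Subgroup.coe_inf, Set.sdiff_self_inter]
  rw [e1, Set.ncard_sdiff (by rw [Subgroup.coe_inf]; exact Set.inter_subset_left)] at h
  have e2 : ((T : Subgroup G) : Set G).ncard = Nat.card T := (Nat.card_coe_set_eq _).symm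
  have e3 : ((T ⊓ centralizer ({x} : Set G) : Subgroup G) : Set G).ncard =
      Nat.card (T ⊓ centralizer ({x} : Set G) : Subgroup G) := (Nat.card_coe_set_eq _).symm
  rwa [e2, e3] at h


section Main

variable [Finite G]

theorem num_sylow11 (n : ℕ) (h1 : n ∣ 720) (h2 : n % 11 = 1) :
    n = 1 ∨ n = 12 ∨ n = 45 ∨ n = 144 := by
  have h3 : n ≤ 720 := Nat.le_of_dvd (by norm_num) h1
  have key : ∀ j < 66, (11 * j + 1) ∣ 720 → (j = 0 ∨ j = 1 ∨ j = 4 ∨ j = 13) := by decide
  have h4 : n = 11 * (n / 11) + 1 := by omega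
  have h5 := key (n / 11) (by omega) (by rw [← h4]; exact h1)
  omega

theorem card_sylow11_cases (hG : Nat.card G = 7920) :
    Nat.card (Sylow 11 G) = 1 ∨ Nat.card (Sylow 11 G) = 12 ∨ Nat.card (Sylow 11 G) = 45 ∨
      Nat.card (Sylow 11 G) = 144 := by
  have hp11 : Fact (Nat.Prime 11) := ⟨by norm_num⟩
  exact num_sylow11 _
    (Cfsg.Agent.Lib.Helper17.card_sylow_dvd_of_card_eq (G := G) 11 1 720 (by rw [hG]; norm_num))
    (Cfsg.Agent.Lib.Helper17.card_sylow_mod (G := G) 11)

/-- Frattini for a normal subgroup of order divisible by `11`. -/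
theorem index_mul_card_inf (hG : Nat.card G = 7920) (S : Sylow 11 G) (C : Subgroup G)
    [C.Normal] (h11 : 11 ∣ Nat.card C) :
    C.index * Nat.card (C ⊓ normalizer ((S : Subgroup G) : Set G) : Subgroup G) =
      Nat.card (normalizer ((S : Subgroup G) : Set G)) ∧
    (S : Subgroup G) ≤ C ⊓ normalizer ((S : Subgroup G) : Set G) := by
  have hp11 : Fact (Nat.Prime 11) := ⟨by norm_num⟩
  have hSC := sylow_le_of_normal hG S C h11
  have htop' := Sylow.normalizer_sup_eq_top' S hSC
  have hidx : C.index = C.relIndex (normalizer ((S : Subgroup G) : Set G)) := by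
    rw [← Subgroup.relIndex_top_right, ← htop', Subgroup.relIndex_sup_right]
    rfl
  have hXcard := relIndex_mul_card_of_le
    (inf_le_right : C ⊓ normalizer ((S : Subgroup G) : Set G) ≤ normalizer ((S : Subgroup G) : Set G))
  rw [Subgroup.inf_relIndex_right, ← hidx] at hXcard
  exact ⟨hXcard, le_inf hSC Subgroup.le_normalizer⟩

theorem index_dvd_of_normal (hG : Nat.card G = 7920)
    (hn : Nat.card (Sylow 11 G) = 45 ∨ Nat.card (Sylow 11 G) = 144) (C : Subgroup G)
    [C.Normal] (h11 : 11 ∣ Nat.card C) : C.index ∣ 16 ∨ C.index ∣ 5 := by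
  have hp11 : Fact (Nat.Prime 11) := ⟨by norm_num⟩
  let S : Sylow 11 G := Classical.arbitrary (Sylow 11 G)
  obtain ⟨h1, h2⟩ := index_mul_card_inf hG S C h11
  have hS11 := card_sylow_eleven hG S
  obtain ⟨c, hc⟩ : 11 ∣ Nat.card (C ⊓ normalizer ((S : Subgroup G) : Set G) : Subgroup G) := by
    have h := Subgroup.card_dvd_of_le h2
    rwa [hS11] at h
  have hH := Cfsg.Agent.Lib.Helper17.card_sylow_mul_card_normalizer 11 S
  rw [hG] at hH
  rw [hc] at h1
  rcases hn with h | h
  · left
    rw [h] at hH
    have h3 : Nat.card (normalizer ((S : Subgroup G) : Set G)) = 176 := by omega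
    rw [h3] at h1
    have h4 : C.index * c = 16 := by
      have : 11 * (C.index * c) = 11 * 16 := by
        rw [show 11 * (C.index * c) = C.index * (11 * c) by ring, h1]
      exact Nat.eq_of_mul_eq_mul_left (by norm_num) this
    exact Dvd.intro _ h4
  · right
    rw [h] at hH
    have h3 : Nat.card (normalizer ((S : Subgroup G) : Set G)) = 55 := by omega
    rw [h3] at h1
    have h4 : C.index * c = 5 := by
      have : 11 * (C.index * c) = 11 * 5 := by
        rw [show 11 * (C.index * c) = C.index * (11 * c) by ring, h1]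
      exact Nat.eq_of_mul_eq_mul_left (by norm_num) this
    exact Dvd.intro _ h4

/-- One or twelve Sylow `11`-subgroups: the prime graph is connected. -/
theorem conn_of_few_sylow (hG : Nat.card G = 7920)
    (hn : Nat.card (Sylow 11 G) = 1 ∨ Nat.card (Sylow 11 G) = 12) : Conn G := by
  have hp11 : Fact (Nat.Prime 11) := ⟨by norm_num⟩
  have hp5 : Fact (Nat.Prime 5) := ⟨by norm_num⟩
  let S : Sylow 11 G := Classical.arbitrary (Sylow 11 G)
  have hS11 := card_sylow_eleven hG S
  set H : Subgroup G := normalizer ((S : Subgroup G) : Set G) with hHdef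
  set C : Subgroup G := centralizer ((S : Subgroup G) : Set G) with hCdef
  have hHcard : Nat.card H = 7920 ∨ Nat.card H = 660 := by
    have h := Cfsg.Agent.Lib.Helper17.card_sylow_mul_card_normalizer 11 S
    rw [hG, ← hHdef] at h
    rcases hn with h1 | h1
    · left; rw [h1] at h; omega
    · right; rw [h1] at h; omega
  obtain ⟨hdvd, hmul⟩ :=
    Cfsg.Agent.Lib.Helper17.relIndex_centralizer_of_card_prime 11 (S : Subgroup G) hS11
  rw [← hHdef, ← hCdef] at hdvd hmul
  obtain ⟨e, he⟩ := hdvd
  have he' : C.relIndex H * e = 10 := by rw [← he]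
  have hC6 : 6 ∣ Nat.card C := by
    have h1 : Nat.card H * e = Nat.card C * 10 := by
      rw [← hmul, ← he']; ring
    rcases hHcard with h | h <;> rw [h] at h1 <;> omega
  have h11S : 11 ∣ Nat.card (S : Subgroup G) := by rw [hS11]
  have a2 : Adj G 2 11 :=
    adj_of_centralizer 2 11 (by norm_num) (S : Subgroup G) (by rw [← hCdef]; omega) h11S
  have a3 : Adj G 3 11 :=
    adj_of_centralizer 3 11 (by norm_num) (S : Subgroup G) (by rw [← hCdef]; omega) h11S
  by_cases h5 : 5 ∣ Nat.card C
  · have a5 : Adj G 5 11 :=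
      adj_of_centralizer 5 11 (by norm_num) (S : Subgroup G) (by rw [← hCdef]; exact h5) h11S
    exact conn_of_three a2 a3 a5 (by decide) (by decide) (by decide) (by decide) (by decide)
      (by decide) (fun A => by clear * -; tauto)
  · have h5H : 5 ∣ Nat.card H := by
      rcases hHcard with h | h <;> rw [h] <;> norm_num
    have h5rel : 5 ∣ C.relIndex H := by
      have h1 : 5 ∣ C.relIndex H * Nat.card C := by rw [hmul]; exact h5H
      exact ((Nat.Prime.dvd_mul (by norm_num)).mp h1).resolve_right h5
    have hHdvd : Nat.card H ∣ 7920 := hG ▸ Subgroup.card_subgroup_dvd_card H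
    have hCH : C ≤ H := Subgroup.centralizer_le_normalizer _
    have h3C' : 3 ∣ Nat.card (C.subgroupOf H) := by
      have h1 : Nat.card (C.subgroupOf H) = Nat.card C :=
        Nat.card_congr (Subgroup.subgroupOfEquivOfLe hCH).toEquiv
      rw [h1]; omega
    have hnorm : (C.subgroupOf H).Normal :=
      Subgroup.normal_subgroupOf_centralizer_normalizer _
    have a35 : Adj H 5 3 :=
      adj_of_sylow' hHdvd 5 3 (by norm_num) (C.subgroupOf H) h5rel h3C' (by decide)
    obtain ⟨g, hg⟩ := a35
    have a35G : Adj G 5 3 := ⟨(g : G), by rw [Subgroup.orderOf_coe]; exact hg⟩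
    exact conn_of_three a2 a3 a35G (by decide) (by decide) (by decide) (by decide) (by decide)
      (by decide) (fun A => by clear * -; tauto)

theorem adj_of_normal_pgroup (hG : Nat.card G = 7920) (q r : ℕ) [Fact q.Prime] [Fact r.Prime]
    (hqr : q ≠ r) (hq : q ∣ 7920) (N : Subgroup G) [hN : N.Normal] (k : ℕ)
    (hcard : Nat.card N = r ^ k) (hmod : ¬ r ^ k ≡ 1 [MOD q]) : Adj G q r := by
  obtain ⟨x, hx⟩ := exists_prime_orderOf_dvd_card' (G := G) q (by rw [hG]; exact hq)
  exact adj_of_normalizes q r hqr N (IsPGroup.of_card hcard) x hx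
    (by rw [Subgroup.normalizer_eq_top]; exact mem_top x) (by rw [hcard]; exact hmod)

/-- A normal subgroup of order `2`, `3`, `4`, `5` or `8`: the prime graph is connected. -/
theorem conn_of_normal_small (hG : Nat.card G = 7920) (N : Subgroup G) [hN : N.Normal]
    (hcard : Nat.card N = 2 ∨ Nat.card N = 3 ∨ Nat.card N = 4 ∨ Nat.card N = 5 ∨
      Nat.card N = 8) : Conn G := by
  have hp11 : Fact (Nat.Prime 11) := ⟨by norm_num⟩
  have hp5 : Fact (Nat.Prime 5) := ⟨by norm_num⟩
  obtain ⟨e, he⟩ := card_centralizer_of_normal N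
  rw [hG] at he
  rcases hcard with h | h | h | h | h
  · have a3 := adj_of_normal_pgroup hG 3 2 (by norm_num) (by norm_num) N 1
      (h.trans (by norm_num)) (by decide)
    have a5 := adj_of_normal_pgroup hG 5 2 (by norm_num) (by norm_num) N 1
      (h.trans (by norm_num)) (by decide)
    have a11 := adj_of_normal_pgroup hG 11 2 (by norm_num) (by norm_num) N 1
      (h.trans (by norm_num)) (by decide)
    exact conn_of_three a3 a5 a11 (by decide) (by decide) (by decide) (by decide) (by decide)
      (by decide) (fun A => by clear * -; tauto)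
  · have a5 := adj_of_normal_pgroup hG 5 3 (by norm_num) (by norm_num) N 1
      (h.trans (by norm_num)) (by decide)
    have a11 := adj_of_normal_pgroup hG 11 3 (by norm_num) (by norm_num) N 1
      (h.trans (by norm_num)) (by decide)
    rw [h] at he
    have hf : Nat.factorial 3 = 6 := by decide
    rw [hf] at he
    have a2 := adj_of_centralizer 2 3 (by norm_num) N (by omega) (by rw [h])
    exact conn_of_three a5 a11 a2 (by decide) (by decide) (by decide) (by decide) (by decide)
      (by decide) (fun A => by clear * -; tauto)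
  · have a5 := adj_of_normal_pgroup hG 5 2 (by norm_num) (by norm_num) N 2
      (h.trans (by norm_num)) (by decide)
    have a11 := adj_of_normal_pgroup hG 11 2 (by norm_num) (by norm_num) N 2
      (h.trans (by norm_num)) (by decide)
    rw [h] at he
    have hf : Nat.factorial 4 = 24 := by decide
    rw [hf] at he
    have a3 := adj_of_centralizer 3 2 (by norm_num) N (by omega) (by rw [h]; norm_num)
    exact conn_of_three a5 a11 a3 (by decide) (by decide) (by decide) (by decide) (by decide)
      (by decide) (fun A => by clear * -; tauto)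
  · have a3 := adj_of_normal_pgroup hG 3 5 (by norm_num) (by norm_num) N 1
      (h.trans (by norm_num)) (by decide)
    have a11 := adj_of_normal_pgroup hG 11 5 (by norm_num) (by norm_num) N 1
      (h.trans (by norm_num)) (by decide)
    rw [h] at he
    have hf : Nat.factorial 5 = 120 := by decide
    rw [hf] at he
    have a2 := adj_of_centralizer 2 5 (by norm_num) N (by omega) (by rw [h])
    exact conn_of_three a3 a11 a2 (by decide) (by decide) (by decide) (by decide) (by decide)
      (by decide) (fun A => by clear * -; tauto)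
  · have a3 := adj_of_normal_pgroup hG 3 2 (by norm_num) (by norm_num) N 3
      (h.trans (by norm_num)) (by decide)
    have a5 := adj_of_normal_pgroup hG 5 2 (by norm_num) (by norm_num) N 3
      (h.trans (by norm_num)) (by decide)
    have a11 := adj_of_normal_pgroup hG 11 2 (by norm_num) (by norm_num) N 3
      (h.trans (by norm_num)) (by decide)
    exact conn_of_three a3 a5 a11 (by decide) (by decide) (by decide) (by decide) (by decide)
      (by decide) (fun A => by clear * -; tauto)


/-- An element of order `11` centralizes a normal subgroup of order `16` or `9`. -/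
theorem eleven_centralizes (N : Subgroup G) [hN : N.Normal]
    (hcard : Nat.card N = 16 ∨ Nat.card N = 9) (x : G) (hx : orderOf x = 11) :
    x ∈ centralizer (N : Set G) := by
  have hp11 : Fact (Nat.Prime 11) := ⟨by norm_num⟩
  have hxp : x ^ 11 = 1 := by rw [← hx]; exact pow_orderOf_eq_one x
  have hd := dvd_card_sub_card_inf_centralizer 11 N x
    (by rw [Subgroup.normalizer_eq_top]; exact mem_top x) hxp
  have h1 : Nat.card (N ⊓ centralizer ({x} : Set G) : Subgroup G) ∣ Nat.card N :=
    Subgroup.card_dvd_of_le inf_le_left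
  have h2 : 0 < Nat.card (N ⊓ centralizer ({x} : Set G) : Subgroup G) := Nat.card_pos
  have h4 : Nat.card N ≤ Nat.card (N ⊓ centralizer ({x} : Set G) : Subgroup G) := by
    generalize Nat.card (N ⊓ centralizer ({x} : Set G) : Subgroup G) = c at hd h1 h2
    rcases hcard with h | h
    · rw [h] at hd h1 ⊢
      have h3 : c ≤ 16 := Nat.le_of_dvd (by norm_num) h1
      interval_cases c <;> omega
    · rw [h] at hd h1 ⊢
      have h3 : c ≤ 9 := Nat.le_of_dvd (by norm_num) h1
      interval_cases c <;> omega
  have hF : N ⊓ centralizer ({x} : Set G) = N := Subgroup.eq_of_le_of_card_ge inf_le_left h4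
  have hNx : N ≤ centralizer ({x} : Set G) := by rw [← hF]; exact inf_le_right
  rw [mem_centralizer_iff]
  intro h hh
  exact (mem_centralizer_singleton_comm.mp (hNx hh)).eq

/-- A normal subgroup of order `16`: the prime graph is connected. -/
theorem conn_of_normal_sixteen (hG : Nat.card G = 7920)
    (hn : Nat.card (Sylow 11 G) = 45 ∨ Nat.card (Sylow 11 G) = 144) (N : Subgroup G)
    [hN : N.Normal] (hcard : Nat.card N = 16) : Conn G := by
  have hp11 : Fact (Nat.Prime 11) := ⟨by norm_num⟩
  have hp5 : Fact (Nat.Prime 5) := ⟨by norm_num⟩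
  have a112 : Adj G 11 2 := adj_of_normal_pgroup hG 11 2 (by norm_num) (by norm_num) N 4
    (hcard.trans (by norm_num)) (by decide)
  obtain ⟨x, hx⟩ := exists_prime_orderOf_dvd_card' (G := G) 11 (by rw [hG]; norm_num)
  have hxC := eleven_centralizes N (Or.inl hcard) x hx
  set C : Subgroup G := centralizer (N : Set G) with hCdef
  have h11C : 11 ∣ Nat.card C := by
    have h := Subgroup.orderOf_dvd_natCard C hxC
    rwa [hx] at h
  have hCcard := Subgroup.card_mul_index C
  rw [hG] at hCcard
  have h3C : 3 ∣ Nat.card C := by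
    have h3 : 3 ∣ Nat.card C * C.index := by rw [hCcard]; norm_num
    rcases index_dvd_of_normal hG hn C h11C with h | h
    · exact (Nat.Coprime.dvd_of_dvd_mul_right
        (Nat.Coprime.coprime_dvd_right h (by decide : Nat.Coprime 3 16)) h3)
    · exact (Nat.Coprime.dvd_of_dvd_mul_right
        (Nat.Coprime.coprime_dvd_right h (by decide : Nat.Coprime 3 5)) h3)
  have a32 : Adj G 3 2 :=
    adj_of_centralizer 3 2 (by norm_num) N (by rw [← hCdef]; exact h3C) (by rw [hcard]; norm_num)
  by_cases h5C : 5 ∣ Nat.card C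
  · have a52 : Adj G 5 2 :=
      adj_of_centralizer 5 2 (by norm_num) N (by rw [← hCdef]; exact h5C)
        (by rw [hcard]; norm_num)
    exact conn_of_three a112 a32 a52 (by decide) (by decide) (by decide) (by decide) (by decide)
      (by decide) (fun A => by clear * -; tauto)
  · have h5idx : 5 ∣ C.index := by
      have h5 : 5 ∣ Nat.card C * C.index := by rw [hCcard]; norm_num
      exact ((Nat.Prime.dvd_mul (by norm_num)).mp h5).resolve_left h5C
    have a53 : Adj G 5 3 :=
      adj_of_sylow' (by rw [hG]) 5 3 (by norm_num) C h5idx h3C (by decide)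
    exact conn_of_three a112 a32 a53 (by decide) (by decide) (by decide) (by decide) (by decide)
      (by decide) (fun A => by clear * -; tauto)

/-- A normal subgroup of order `9`: the prime graph is connected. -/
theorem conn_of_normal_nine (hG : Nat.card G = 7920)
    (hn : Nat.card (Sylow 11 G) = 45 ∨ Nat.card (Sylow 11 G) = 144) (N : Subgroup G)
    [hN : N.Normal] (hcard : Nat.card N = 9) : Conn G := by
  have hp11 : Fact (Nat.Prime 11) := ⟨by norm_num⟩
  have hp5 : Fact (Nat.Prime 5) := ⟨by norm_num⟩
  have hpr11 : Nat.Prime 11 := by norm_num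
  have a53 : Adj G 5 3 := adj_of_normal_pgroup hG 5 3 (by norm_num) (by norm_num) N 2
    (hcard.trans (by norm_num)) (by decide)
  have a113 : Adj G 11 3 := adj_of_normal_pgroup hG 11 3 (by norm_num) (by norm_num) N 2
    (hcard.trans (by norm_num)) (by decide)
  set C : Subgroup G := centralizer (N : Set G) with hCdef
  by_cases h2C : 2 ∣ Nat.card C
  · have a23 : Adj G 2 3 :=
      adj_of_centralizer 2 3 (by norm_num) N (by rw [← hCdef]; exact h2C)
        (by rw [hcard]; norm_num)
    exact conn_of_three a53 a113 a23 (by decide) (by decide) (by decide) (by decide) (by decide)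
      (by decide) (fun A => by clear * -; tauto)
  · exfalso
    let S : Sylow 11 G := Classical.arbitrary (Sylow 11 G)
    have hS11 := card_sylow_eleven hG S
    have hSne : (S : Subgroup G) ≠ ⊥ := by
      rw [← Subgroup.one_lt_card_iff_ne_bot, hS11]; norm_num
    obtain ⟨x', hx'⟩ := (Subgroup.ne_bot_iff_exists_ne_one).mp hSne
    have hx1 : (x' : G) ≠ 1 := fun h => hx' (Subtype.ext h)
    have hxo : orderOf (x' : G) = 11 :=
      Cfsg.Agent.Lib.Helper17.orderOf_eq_of_mem_of_card_prime hpr11 (S : Subgroup G) hS11 _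
        x'.2 hx1
    have hzs : zpowers (x' : G) = (S : Subgroup G) :=
      Cfsg.Agent.Lib.Helper17.zpowers_eq_of_mem_of_card_prime hpr11 (S : Subgroup G) hS11 _
        x'.2 hx1
    have hxC := eleven_centralizes N (Or.inr hcard) (x' : G) hxo
    have h11C : 11 ∣ Nat.card C := by
      have h := Subgroup.orderOf_dvd_natCard C hxC
      rwa [hxo] at h
    have hCcard := Subgroup.card_mul_index C
    rw [hG] at hCcard
    obtain ⟨h1, h2⟩ := index_mul_card_inf hG S C h11C
    -- `N ≤ C ⊓ N_G(S)`
    have hNC : N ≤ C := by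
      intro a ha
      rw [hCdef, mem_centralizer_iff]
      intro b hb
      have hcomm := (IsPGroup.isMulCommutative_of_card_eq_prime_sq (p := 3) (G := N)
        (hcard.trans (by norm_num))).is_comm.comm ⟨b, hb⟩ ⟨a, ha⟩
      exact congrArg Subtype.val hcomm
    have hNS : N ≤ normalizer ((S : Subgroup G) : Set G) := by
      refine le_trans ?_ (Subgroup.centralizer_le_normalizer _)
      intro a ha
      rw [mem_centralizer_iff]
      intro s hs
      rw [← hzs] at hs
      obtain ⟨i, rfl⟩ := mem_zpowers_iff.mp hs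
      rw [mem_centralizer_iff] at hxC
      have hc : Commute (x' : G) a := (hxC a ha).symm
      exact (hc.zpow_left i).eq
    have h9 : 9 ∣ Nat.card (C ⊓ normalizer ((S : Subgroup G) : Set G) : Subgroup G) := by
      have h := Subgroup.card_dvd_of_le (le_inf hNC hNS)
      rwa [hcard] at h
    rcases index_dvd_of_normal hG hn C h11C with h | h
    · -- the index is `16`
      have h16 : 16 ∣ C.index := by
        have h3 : 16 ∣ Nat.card C * C.index := by rw [hCcard]; norm_num
        have hodd : Nat.Coprime 16 (Nat.card C) := by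
          have : Nat.Coprime 2 (Nat.card C) :=
            (Nat.Prime.coprime_iff_not_dvd Nat.prime_two).mpr h2C
          exact Nat.Coprime.pow_left 4 this
        exact hodd.dvd_of_dvd_mul_left h3
      have hidx : C.index = 16 := Nat.dvd_antisymm h h16
      have hH := Cfsg.Agent.Lib.Helper17.card_sylow_mul_card_normalizer 11 S
      rw [hG] at hH
      rw [hidx] at h1
      obtain ⟨c, hc⟩ := h9
      rw [hc] at h1
      rcases hn with h' | h' <;> rw [h'] at hH <;> omega
    · -- the index divides `5`, so `C` has even order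
      apply h2C
      have h3 : 2 ∣ Nat.card C * C.index := by rw [hCcard]; norm_num
      exact (Nat.Coprime.dvd_of_dvd_mul_right
        (Nat.Coprime.coprime_dvd_right h (by decide : Nat.Coprime 2 5)) h3)


theorem coprime_of_not_dvd {m p : ℕ} (hp : p.Prime) (h : ¬ p ∣ m) : Nat.Coprime m p :=
  ((Nat.Prime.coprime_iff_not_dvd hp).mpr h).symm

/-- A non-trivial normal subgroup of order prime to `11`: the prime graph is connected. -/
theorem conn_of_normal_coprime (hG : Nat.card G = 7920)
    (hn : Nat.card (Sylow 11 G) = 45 ∨ Nat.card (Sylow 11 G) = 144) (N : Subgroup G)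
    [hN : N.Normal] (hbot : N ≠ ⊥) (h11 : ¬ 11 ∣ Nat.card N) : Conn G := by
  have hp11 : Fact (Nat.Prime 11) := ⟨by norm_num⟩
  have hp5 : Fact (Nat.Prime 5) := ⟨by norm_num⟩
  have hpr5 : Nat.Prime 5 := by norm_num
  have hpr11 : Nat.Prime 11 := by norm_num
  have hmN := Subgroup.card_mul_index N
  rw [hG] at hmN
  have hdvd : Nat.card N ∣ 7920 := Dvd.intro _ hmN
  have hm1 : Nat.card N ≠ 1 := fun h => hbot (Subgroup.card_eq_one.mp h)
  have hG' : Nat.card G ∣ 7920 := by rw [hG]
  have hidx11 : 11 ∣ N.index := by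
    have h : 11 ∣ Nat.card N * N.index := by rw [hmN]; norm_num
    exact ((Nat.Prime.dvd_mul hpr11).mp h).resolve_left h11
  have a2 : 2 ∣ Nat.card N → Adj G 11 2 := fun h =>
    adj_of_sylow' hG' 11 2 (by norm_num) N hidx11 h (by decide)
  have a3 : 3 ∣ Nat.card N → Adj G 11 3 := fun h =>
    adj_of_sylow' hG' 11 3 (by norm_num) N hidx11 h (by decide)
  have a5 : 5 ∣ Nat.card N → Adj G 11 5 := fun h =>
    adj_of_sylow' hG' 11 5 (by norm_num) N hidx11 h (by decide)
  have c11 := coprime_of_not_dvd hpr11 h11
  by_cases h2 : 2 ∣ Nat.card N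
  · by_cases h3 : 3 ∣ Nat.card N
    · by_cases h5 : 5 ∣ Nat.card N
      · exact conn_of_three (a2 h2) (a3 h3) (a5 h5) (by decide) (by decide) (by decide)
          (by decide) (by decide) (by decide) (fun A => by clear * -; tauto)
      · have hidx5 : 5 ∣ N.index := by
          have h : 5 ∣ Nat.card N * N.index := by rw [hmN]; norm_num
          exact ((Nat.Prime.dvd_mul hpr5).mp h).resolve_left h5
        have a53 : Adj G 5 3 := adj_of_sylow' hG' 5 3 (by norm_num) N hidx5 h3 (by decide)
        exact conn_of_three (a2 h2) (a3 h3) a53 (by decide) (by decide) (by decide)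
          (by decide) (by decide) (by decide) (fun A => by clear * -; tauto)
    · by_cases h5 : 5 ∣ Nat.card N
      · have hidx3 : 3 ∣ N.index := by
          have h : 3 ∣ Nat.card N * N.index := by rw [hmN]; norm_num
          exact ((Nat.Prime.dvd_mul Nat.prime_three).mp h).resolve_left h3
        have a35 : Adj G 3 5 := adj_of_sylow' hG' 3 5 (by norm_num) N hidx3 h5 (by decide)
        exact conn_of_three (a2 h2) (a5 h5) a35 (by decide) (by decide) (by decide)
          (by decide) (by decide) (by decide) (fun A => by clear * -; tauto)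
      · -- a `2`-group
        have c3 := coprime_of_not_dvd Nat.prime_three h3
        have c5 := coprime_of_not_dvd hpr5 h5
        have hc495 : Nat.Coprime (Nat.card N) 495 := by
          have e : (495 : ℕ) = 3 * 3 * 5 * 11 := by norm_num
          rw [e]
          exact ((c3.mul_right c3).mul_right c5).mul_right c11
        have hd16 : Nat.card N ∣ 16 := by
          have e : (7920 : ℕ) = 16 * 495 := by norm_num
          rw [e] at hdvd
          exact hc495.dvd_of_dvd_mul_right hdvd
        have hle : Nat.card N ≤ 16 := Nat.le_of_dvd (by norm_num) hd16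
        have hc : Nat.card N = 2 ∨ Nat.card N = 4 ∨ Nat.card N = 8 ∨ Nat.card N = 16 := by
          generalize Nat.card N = m at hd16 hle hm1 h2
          interval_cases m <;> omega
        rcases hc with h | h | h | h
        · exact conn_of_normal_small hG N (Or.inl h)
        · exact conn_of_normal_small hG N (Or.inr (Or.inr (Or.inl h)))
        · exact conn_of_normal_small hG N (Or.inr (Or.inr (Or.inr (Or.inr h))))
        · exact conn_of_normal_sixteen hG hn N h
  · have c2 := coprime_of_not_dvd Nat.prime_two h2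
    by_cases h3 : 3 ∣ Nat.card N
    · by_cases h5 : 5 ∣ Nat.card N
      · -- order `15` or `45`
        let P : Sylow 5 N := Classical.arbitrary _
        obtain ⟨k, hk, hkd, hkpos⟩ := sylow_card_spec N P
        have hk1 : k = 1 := by
          have key : ∀ k < 13, 0 < k → 5 ^ k ∣ 7920 → k = 1 := by decide
          have hd := hkd.trans hdvd
          exact key k (pow_lt_of_dvd (by norm_num) hd) (hkpos h5) hd
        set T : Subgroup G := (P : Subgroup N).map N.subtype with hTdef
        have hTcard : Nat.card T = 5 := by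
          rw [hTdef, card_map_of_injective N.subtype_injective, hk, hk1]; norm_num
        have h16idx : 16 ∣ N.index := by
          have h : 16 ∣ Nat.card N * N.index := by rw [hmN]; norm_num
          have hc16 : Nat.Coprime 16 (Nat.card N) := (Nat.Coprime.pow_right 4 c2).symm
          exact hc16.dvd_of_dvd_mul_left h
        have hnorm := index_dvd_card_normalizer N P
        rw [← hTdef] at hnorm
        have hrel := Cfsg.Agent.Lib.Helper24.relIndex_dvd_factorial T
        rw [hTcard] at hrel
        have hf : Nat.factorial 5 = 120 := by decide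
        rw [hf] at hrel
        have hmul := relIndex_mul_card_of_le (Subgroup.centralizer_le_normalizer (T : Set G))
        obtain ⟨e, he⟩ := hrel
        have h16 : 16 ∣ Nat.card (normalizer (T : Set G)) := h16idx.trans hnorm
        have h2c : 2 ∣ Nat.card (centralizer (T : Set G)) := by
          have h1 : Nat.card (normalizer (T : Set G)) * e =
              Nat.card (centralizer (T : Set G)) * 120 := by
            rw [← hmul, he]; ring
          have h' : 16 ∣ Nat.card (centralizer (T : Set G)) * 120 := by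
            rw [← h1]; exact Dvd.dvd.mul_right h16 e
          omega
        have a25 : Adj G 2 5 := adj_of_centralizer 2 5 (by norm_num) T h2c (by rw [hTcard])
        exact conn_of_three (a3 h3) (a5 h5) a25 (by decide) (by decide) (by decide)
          (by decide) (by decide) (by decide) (fun A => by clear * -; tauto)
      · -- a `3`-group
        have c5 := coprime_of_not_dvd hpr5 h5
        have hc880 : Nat.Coprime (Nat.card N) 880 := by
          have e : (880 : ℕ) = 2 * 2 * 2 * 2 * 5 * 11 := by norm_num
          rw [e]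
          exact (((((c2.mul_right c2).mul_right c2).mul_right c2).mul_right c5).mul_right c11)
        have hd9 : Nat.card N ∣ 9 := by
          have e : (7920 : ℕ) = 9 * 880 := by norm_num
          rw [e] at hdvd
          exact hc880.dvd_of_dvd_mul_right hdvd
        have hle : Nat.card N ≤ 9 := Nat.le_of_dvd (by norm_num) hd9
        have hc : Nat.card N = 3 ∨ Nat.card N = 9 := by
          generalize Nat.card N = m at hd9 hle hm1 h3
          interval_cases m <;> omega
        rcases hc with h | h
        · exact conn_of_normal_small hG N (Or.inr (Or.inl h))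
        · exact conn_of_normal_nine hG hn N h
    · have c3 := coprime_of_not_dvd Nat.prime_three h3
      by_cases h5 : 5 ∣ Nat.card N
      · have hc1584 : Nat.Coprime (Nat.card N) 1584 := by
          have e : (1584 : ℕ) = 2 * 2 * 2 * 2 * 3 * 3 * 11 := by norm_num
          rw [e]
          exact ((((((c2.mul_right c2).mul_right c2).mul_right c2).mul_right c3).mul_right
            c3).mul_right c11)
        have hd5 : Nat.card N ∣ 5 := by
          have e : (7920 : ℕ) = 5 * 1584 := by norm_num
          rw [e] at hdvd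
          exact hc1584.dvd_of_dvd_mul_right hdvd
        have hc : Nat.card N = 5 := by
          rcases (Nat.dvd_prime hpr5).mp hd5 with h | h
          · exact absurd h hm1
          · exact h
        exact conn_of_normal_small hG N (Or.inr (Or.inr (Or.inr (Or.inl hc))))
      · exfalso
        have c5 := coprime_of_not_dvd hpr5 h5
        have hc7920 : Nat.Coprime (Nat.card N) 7920 := by
          have e : (7920 : ℕ) = 2 * 2 * 2 * 2 * 3 * 3 * 5 * 11 := by norm_num
          rw [e]
          exact (((((((c2.mul_right c2).mul_right c2).mul_right c2).mul_right c3).mul_right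
            c3).mul_right c5).mul_right c11)
        exact hm1 (Nat.Coprime.eq_one_of_dvd hc7920 hdvd)

/-- A non-simple group of order `7920` has connected prime graph. -/
theorem conn_of_not_simple (hG : Nat.card G = 7920) (hns : ¬ IsSimpleGroup G) : Conn G := by
  have hnt : Nontrivial G := (Finite.one_lt_card_iff_nontrivial).mp (by rw [hG]; norm_num)
  have hex : ∃ N : Subgroup G, N.Normal ∧ N ≠ ⊥ ∧ N ≠ ⊤ := by
    by_contra h
    apply hns
    refine ⟨fun H hH => ?_⟩
    by_contra h'
    exact h ⟨H, hH, fun e => h' (Or.inl e), fun e => h' (Or.inr e)⟩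
  obtain ⟨N, hN, hbot, htop⟩ := hex
  rcases card_sylow11_cases hG with h | h | h | h
  · exact conn_of_few_sylow hG (Or.inl h)
  · exact conn_of_few_sylow hG (Or.inr h)
  · by_cases hCI : ∀ M : Subgroup G, M.Normal → M ≠ ⊥ → 11 ∣ Nat.card M
    · exact (caseII_45 hG h hCI).elim
    · obtain ⟨M, hM⟩ := not_forall.mp hCI
      obtain ⟨hMn, hM2⟩ := Classical.not_imp.mp hM
      obtain ⟨hMb, hM11⟩ := Classical.not_imp.mp hM2
      exact conn_of_normal_coprime hG (Or.inl h) M hMb hM11
  · by_cases hCI : ∀ M : Subgroup G, M.Normal → M ≠ ⊥ → 11 ∣ Nat.card M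
    · exact (caseII_144 hG h hCI N hN hbot htop).elim
    · obtain ⟨M, hM⟩ := not_forall.mp hCI
      obtain ⟨hMn, hM2⟩ := Classical.not_imp.mp hM
      obtain ⟨hMb, hM11⟩ := Classical.not_imp.mp hM2
      exact conn_of_normal_coprime hG (Or.inr h) M hMb hM11

theorem prime_dvd_7920 {p : ℕ} (hp : p.Prime) (h : p ∣ 7920) :
    p = 2 ∨ p = 3 ∨ p = 5 ∨ p = 11 := by
  have e : (7920 : ℕ) = 2 ^ 4 * 3 ^ 2 * 5 * 11 := by norm_num
  rw [e] at h
  rcases (Nat.Prime.dvd_mul hp).mp h with h | h
  · rcases (Nat.Prime.dvd_mul hp).mp h with h | h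
    · rcases (Nat.Prime.dvd_mul hp).mp h with h | h
      · left
        exact (Nat.prime_dvd_prime_iff_eq hp Nat.prime_two).mp (hp.dvd_of_dvd_pow h)
      · right; left
        exact (Nat.prime_dvd_prime_iff_eq hp Nat.prime_three).mp (hp.dvd_of_dvd_pow h)
    · right; right; left
      exact (Nat.prime_dvd_prime_iff_eq hp (by norm_num)).mp h
  · right; right; right
    exact (Nat.prime_dvd_prime_iff_eq hp (by norm_num)).mp h

/-- A group of order `7920` with disconnected prime graph is simple. -/
theorem simple_of_disconnected (hord : Nat.card G = 7920)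
    (hdisc : (∃ A : Set ℕ, (∃ a ∈ A, a.Prime ∧ a ∣ Nat.card G) ∧
      (∃ b ∉ A, b.Prime ∧ b ∣ Nat.card G) ∧
      ∀ a ∈ A, ∀ b ∉ A, a.Prime → b.Prime → a ∣ Nat.card G → b ∣ Nat.card G →
        ¬ ∃ g : G, orderOf g = a * b)) :
    IsSimpleGroup G := by
  by_contra hns
  have hconn : Conn G := conn_of_not_simple hord hns
  obtain ⟨A, ⟨a, haA, hap, had⟩, ⟨b, hbA, hbp, hbd⟩, hno⟩ := hdisc
  rw [hord] at had hbd hno
  have hprime : ∀ p : ℕ, (p = 2 ∨ p = 3 ∨ p = 5 ∨ p = 11) → p.Prime ∧ p ∣ 7920 := by
    rintro p (rfl | rfl | rfl | rfl) <;> constructor <;> norm_num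
  have key := hconn A (fun p q hp hq hadj => by
    obtain ⟨hpp, hpd⟩ := hprime p hp
    obtain ⟨hqp, hqd⟩ := hprime q hq
    constructor
    · intro hpA
      by_contra hqA
      exact hno p hpA q hqA hpp hqp hpd hqd hadj
    · intro hqA
      by_contra hpA
      exact hno q hqA p hpA hqp hpp hqd hpd hadj.symm)
  obtain ⟨h23, h25, h211⟩ := key
  have ha' := prime_dvd_7920 hap had
  have hb' := prime_dvd_7920 hbp hbd
  rcases ha' with rfl | rfl | rfl | rfl <;> rcases hb' with rfl | rfl | rfl | rfl <;> tauto

end Main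

end Cfsg.Agent.Lib.Helper52.PG7920
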