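import Cfsg.Prelude.Def_TwoFusion
import Cfsg.Agent.Lib.Helper42.Wreathed
import Cfsg.Agent.Lib.Helper20.Tame
import Cfsg.Agent.Lib.Helper52.WrGeneral
import Mathlib

/-!
# Sylow 2-subgroups of the form `Q × R` with `Q` generalized quaternion

If a Sylow 2-subgroup `S` of `G` is an internal direct product `Q × R` with `Q` generalized
quaternion and all involutions of `R` central in `R`, then `S` contains an involution `p` which
is not conjugate in `G` to any other element of `S`: the product of all `G`-conjugates of the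
involution of `Q` lying in `S`.  With Glauberman's `Z*`-theorem this shows that `G` is not
simple.
-/

set_option autoImplicit false

namespace Cfsg.Agent.Lib.Helper52

open Subgroup Cfsg.Agent.Lib.Helper42 Cfsg.Agent.Lib.Helper20

section QuatModel

variable (m : ℕ)

theorem quat_sq_eq_one (hm : 1 ≤ m) (g : QuaternionGroup m) (h : g * g = 1) :
    g = 1 ∨ g = QuaternionGroup.a (m : ZMod (2 * m)) := by
  rcases g with i | i
  · rw [QuaternionGroup.a_mul_a, QuaternionGroup.one_def] at h
    have h1 : i + i = 0 := QuaternionGroup.a.inj h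
    rcases (Wr.two_mul_eq_zero_iff m hm i).1 (by linear_combination h1) with rfl | rfl
    · left; exact QuaternionGroup.a_zero
    · right; rfl
  · exfalso
    rw [QuaternionGroup.xa_mul_xa, QuaternionGroup.one_def] at h
    have h1 : (m : ZMod (2 * m)) + i - i = 0 := QuaternionGroup.a.inj h
    exact Wr.natCast_ne_zero m hm (by linear_combination h1)

theorem quat_center_cases (hm : 2 ≤ m) (g : QuaternionGroup m)
    (h1 : g * QuaternionGroup.a 1 = QuaternionGroup.a 1 * g)
    (h2 : g * QuaternionGroup.xa 0 = QuaternionGroup.xa 0 * g) :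
    g = 1 ∨ g = QuaternionGroup.a (m : ZMod (2 * m)) := by
  rcases g with i | i
  · rw [QuaternionGroup.a_mul_xa, QuaternionGroup.xa_mul_a] at h2
    have h3 : 0 - i = 0 + i := QuaternionGroup.xa.inj h2
    rcases (Wr.two_mul_eq_zero_iff m (by omega) i).1 (by linear_combination -h3) with rfl | rfl
    · left; exact QuaternionGroup.a_zero
    · right; rfl
  · exfalso
    rw [QuaternionGroup.xa_mul_a, QuaternionGroup.a_mul_xa] at h1
    have h3 : i + 1 = i - 1 := QuaternionGroup.xa.inj h1
    have h4 : ((2 : ℕ) : ZMod (2 * m)) = 0 := by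
      push_cast; linear_combination h3
    rw [ZMod.natCast_eq_zero_iff] at h4
    have h5 := Nat.le_of_dvd (by norm_num) h4
    omega

theorem quat_xa_sq :
    (QuaternionGroup.xa 0 : QuaternionGroup m) * QuaternionGroup.xa 0 =
      QuaternionGroup.a (m : ZMod (2 * m)) := by
  rw [QuaternionGroup.xa_mul_xa]; congr 1; ring

theorem quat_a_ne_one (hm : 1 ≤ m) :
    (QuaternionGroup.a (m : ZMod (2 * m)) : QuaternionGroup m) ≠ 1 := by
  rw [QuaternionGroup.one_def]
  intro h
  exact Wr.natCast_ne_zero m hm (QuaternionGroup.a.inj h)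

theorem quat_a_sq :
    (QuaternionGroup.a (m : ZMod (2 * m)) : QuaternionGroup m) *
      QuaternionGroup.a (m : ZMod (2 * m)) = 1 := by
  rw [QuaternionGroup.a_mul_a, Wr.natCast_add_self, QuaternionGroup.a_zero]

theorem quat_a_central (g : QuaternionGroup m) :
    QuaternionGroup.a (m : ZMod (2 * m)) * g = g * QuaternionGroup.a (m : ZMod (2 * m)) := by
  rcases g with i | i
  · rw [QuaternionGroup.a_mul_a, QuaternionGroup.a_mul_a, add_comm]
  · rw [QuaternionGroup.a_mul_xa, QuaternionGroup.xa_mul_a]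
    congr 1
    linear_combination -Wr.natCast_add_self m

end QuatModel

section QuatData

variable {G : Type*} [Group G]

/-- The properties of a generalized quaternion subgroup `Q` with involution `z` used below. -/
structure QuatData (Q : Subgroup G) (z y : G) : Prop where
  z_mem : z ∈ Q
  y_mem : y ∈ Q
  y_sq : y * y = z
  z_sq : z * z = 1
  z_ne : z ≠ 1
  invol : ∀ q ∈ Q, q * q = 1 → q = 1 ∨ q = z
  center : ∀ q ∈ Q, (∀ t ∈ Q, q * t = t * q) → q = 1 ∨ q = z
  z_central : ∀ t ∈ Q, z * t = t * z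

theorem quatData_of_equiv (Q : Subgroup G) (m : ℕ) (hm : 2 ≤ m) (eQ : Q ≃* QuaternionGroup m) :
    ∃ z y : G, QuatData Q z y := by
  have hm1 : 1 ≤ m := by omega
  have hmk : ∀ q : Q, q = 1 ∨ q = eQ.symm (QuaternionGroup.a (m : ZMod (2 * m))) →
      (q : G) = 1 ∨ (q : G) = ((eQ.symm (QuaternionGroup.a (m : ZMod (2 * m))) : Q) : G) := by
    rintro q (rfl | rfl)
    · left; rfl
    · right; rfl
  refine ⟨((eQ.symm (QuaternionGroup.a (m : ZMod (2 * m))) : Q) : G),
    ((eQ.symm (QuaternionGroup.xa 0) : Q) : G), (eQ.symm _).2, (eQ.symm _).2, ?_, ?_, ?_, ?_, ?_, ?_⟩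
  · rw [← Subgroup.coe_mul, ← map_mul, quat_xa_sq]
  · rw [← Subgroup.coe_mul, ← map_mul, quat_a_sq, map_one, Subgroup.coe_one]
  · intro h
    have h1 : eQ.symm (QuaternionGroup.a (m : ZMod (2 * m))) = 1 := Subtype.ext h
    rw [← map_one eQ.symm] at h1
    exact quat_a_ne_one m hm1 (eQ.symm.injective h1)
  · intro q hq hqq
    apply hmk ⟨q, hq⟩
    have h1 : eQ ⟨q, hq⟩ * eQ ⟨q, hq⟩ = 1 := by
      rw [← map_mul]
      have h2 : (⟨q, hq⟩ : Q) * ⟨q, hq⟩ = 1 := Subtype.ext hqq
      rw [h2, map_one]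
    rcases quat_sq_eq_one m hm1 _ h1 with h3 | h3
    · left
      rw [← map_one eQ] at h3
      exact eQ.injective h3
    · right
      rw [← h3, eQ.symm_apply_apply]
  · intro q hq hc
    apply hmk ⟨q, hq⟩
    have hc' : ∀ t : QuaternionGroup m, eQ ⟨q, hq⟩ * t = t * eQ ⟨q, hq⟩ := by
      intro t
      have h2 := hc (eQ.symm t : Q) (eQ.symm t).2
      have h3 : (⟨q, hq⟩ : Q) * eQ.symm t = eQ.symm t * ⟨q, hq⟩ := Subtype.ext h2
      have h4 := congrArg eQ h3
      rw [map_mul, map_mul, eQ.apply_symm_apply] at h4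
      exact h4
    rcases quat_center_cases m hm _ (hc' _) (hc' _) with h3 | h3
    · left
      rw [← map_one eQ] at h3
      exact eQ.injective h3
    · right
      rw [← h3, eQ.symm_apply_apply]
  · intro t ht
    have h1 := quat_a_central m (eQ ⟨t, ht⟩)
    have h2 : eQ.symm (QuaternionGroup.a (m : ZMod (2 * m))) * ⟨t, ht⟩ =
        ⟨t, ht⟩ * eQ.symm (QuaternionGroup.a (m : ZMod (2 * m))) := by
      apply eQ.injective
      rw [map_mul, map_mul, eQ.apply_symm_apply]
      exact h1
    exact congrArg Subtype.val h2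

end QuatData

section QuatProduct

variable {G : Type*} [Group G] [Finite G]

open scoped IsMulCommutative in
/-- If the Sylow 2-subgroup `S` is `Q × R` with `Q` generalized quaternion and all involutions of
`R` central in `R`, then `S` contains an involution not conjugate in `G` to any other element of
`S`. -/
theorem quat_product_exists_isolated (S : Sylow 2 G) (Q R : Subgroup G)
    (hQR : Cfsg.IsInternalDirectProduct Q R (S : Subgroup G)) (z y : G) (hD : QuatData Q z y)
    (hR : ∀ r ∈ R, orderOf r = 2 → ∀ s ∈ R, r * s = s * r) :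
    ∃ p : G, orderOf p = 2 ∧ p ∈ (S : Subgroup G) ∧
      ∀ g : G, g * p * g⁻¹ ∈ (S : Subgroup G) → g * p * g⁻¹ = p := by
  classical
  have hP2 : Fact (Nat.Prime 2) := ⟨Nat.prime_two⟩
  obtain ⟨hQS, hRS, hcomm, hinf, hsup⟩ := hQR
  have hQN : Q ≤ normalizer (R : Set G) := by
    intro q hq
    apply Subgroup.mem_normalizer_fintype
    intro r hr
    have h1 : q * r * q⁻¹ = r := by rw [hcomm q hq r hr]; group
    rw [h1]; exact hr
  have hdec : ∀ s ∈ (S : Subgroup G), ∃ q ∈ Q, ∃ r ∈ R, s = q * r := by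
    intro s hs
    rw [← hsup] at hs
    exact mem_sup_of_le_normalizer Q R hQN s hs
  have hinter : ∀ x, x ∈ Q → x ∈ R → x = 1 := by
    intro x hxQ hxR
    have h1 : x ∈ Q ⊓ R := ⟨hxQ, hxR⟩
    rw [hinf] at h1
    exact Subgroup.mem_bot.1 h1
  have hord2 : ∀ t : G, t * t = 1 → t ≠ 1 → orderOf t = 2 := by
    intro t h h1
    rw [orderOf_eq_prime_iff]
    exact ⟨by rw [sq]; exact h, h1⟩
  -- involutions of `S` are central in `S`
  have hinvS : ∀ s ∈ (S : Subgroup G), s * s = 1 → ∀ t ∈ (S : Subgroup G), s * t = t * s := by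
    intro s hs hss t ht
    obtain ⟨q, hq, r, hr, rfl⟩ := hdec s hs
    obtain ⟨q', hq', r', hr', rfl⟩ := hdec t ht
    have e5 := hcomm q hq r hr
    have h1 : q * q * (r * r) = 1 := by
      calc q * q * (r * r) = q * (q * r) * r := by group
        _ = q * (r * q) * r := by rw [e5]
        _ = (q * r) * (q * r) := by group
        _ = 1 := hss
    have hqq : q * q = 1 := by
      apply hinter _ (mul_mem hq hq)
      have h2 : q * q = (r * r)⁻¹ := eq_inv_of_mul_eq_one_left h1
      rw [h2]; exact inv_mem (mul_mem hr hr)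
    have hrr : r * r = 1 := by rw [hqq, one_mul] at h1; exact h1
    have hqc : ∀ t ∈ Q, q * t = t * q := by
      rcases hD.invol q hq hqq with rfl | rfl
      · intro t _; rw [one_mul, mul_one]
      · exact hD.z_central
    have hrc : ∀ t ∈ R, r * t = t * r := by
      by_cases hr1 : r = 1
      · subst hr1; intro t _; rw [one_mul, mul_one]
      · exact hR r hr (hord2 r hrr hr1)
    have e1 := hqc q' hq'
    have e2 := hrc r' hr'
    have e3 := hcomm q hq r' hr'
    have e4 := hcomm q' hq' r hr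
    calc q * r * (q' * r') = q * (r * q') * r' := by group
      _ = q * (q' * r) * r' := by rw [e4]
      _ = (q * q') * (r * r') := by group
      _ = (q' * q) * (r' * r) := by rw [e1, e2]
      _ = q' * (q * r') * r := by group
      _ = q' * (r' * q) * r := by rw [e3]
      _ = q' * r' * (q * r) := by group
  have hzS : z ∈ (S : Subgroup G) := hQS hD.z_mem
  -- `Q` is normal in `S`
  have hQnorm : ∀ s ∈ (S : Subgroup G), ∀ q ∈ Q, s * q * s⁻¹ ∈ Q := by
    intro s hs q hq
    obtain ⟨q', hq', r', hr', rfl⟩ := hdec s hs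
    have h2 := hcomm q hq r' hr'
    have h1 : q' * r' * q * (q' * r')⁻¹ = q' * q * q'⁻¹ := by
      calc q' * r' * q * (q' * r')⁻¹ = q' * (r' * q) * r'⁻¹ * q'⁻¹ := by group
        _ = q' * (q * r') * r'⁻¹ * q'⁻¹ := by rw [h2]
        _ = q' * q * q'⁻¹ := by group
    rw [h1]
    exact mul_mem (mul_mem hq' hq) (inv_mem hq')
  have htwo : ∀ s ∈ (S : Subgroup G), ∃ k : ℕ, s ^ 2 ^ k = 1 := by
    intro s hs
    obtain ⟨k, hk⟩ := S.isPGroup' ⟨s, hs⟩
    exact ⟨k, by simpa using congrArg Subtype.val hk⟩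
  have hcentS : ∀ s ∈ (S : Subgroup G), s * s = 1 →
      s ∈ centralizer ((S : Subgroup G) : Set G) := by
    intro s hs hss
    rw [mem_centralizer_iff]
    intro t ht
    exact (hinvS s hs hss t ht).symm
  -- conjugates of `z` in `S` other than `z` lie in `R`
  have hstruct : ∀ e ∈ (S : Subgroup G), IsConj z e → e ≠ z → e ∈ R := by
    intro e heS hconj hne
    obtain ⟨g, hg⟩ := isConj_iff.1 hconj
    have hee : e * e = 1 := by
      rw [← hg]
      calc g * z * g⁻¹ * (g * z * g⁻¹) = g * (z * z) * g⁻¹ := by group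
        _ = 1 := by rw [hD.z_sq]; group
    obtain ⟨m, hm, hem⟩ : ∃ m ∈ normalizer ((S : Subgroup G) : Set G), e = m * z * m⁻¹ := by
      obtain ⟨n, hn, hne'⟩ := Sylow.conj_eq_normalizer_conj_of_mem_centralizer S z g⁻¹
        (hcentS z hzS hD.z_sq) (by rw [inv_inv, hg]; exact hcentS e heS hee)
      rw [inv_inv, hg] at hne'
      exact ⟨n⁻¹, inv_mem hn, by rw [hne', inv_inv]⟩
    have hy1S : m * y * m⁻¹ ∈ (S : Subgroup G) :=
      (mem_normalizer_iff.1 hm y).1 (hQS hD.y_mem)
    have hy1sq : m * y * m⁻¹ * (m * y * m⁻¹) = e := by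
      rw [hem, ← hD.y_sq]; group
    have hcen : ∀ q ∈ Q, m * y * m⁻¹ * q = q * (m * y * m⁻¹) := by
      intro q hq
      by_contra hcon
      have hw1 : m * y * m⁻¹ * q * (m * y * m⁻¹)⁻¹ * q⁻¹ ≠ 1 := by
        intro h1
        apply hcon
        have h2 : m * y * m⁻¹ * q =
            (m * y * m⁻¹ * q * (m * y * m⁻¹)⁻¹ * q⁻¹) * q * (m * y * m⁻¹) := by group
        rw [h2, h1, one_mul]
      have hwQ : m * y * m⁻¹ * q * (m * y * m⁻¹)⁻¹ * q⁻¹ ∈ Q :=
        mul_mem (hQnorm _ hy1S q hq) (inv_mem hq)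
      have hsS : m⁻¹ * q * m ∈ (S : Subgroup G) :=
        conj_inv_mem_of_mem_normalizer _ m hm q (hQS hq)
      have hq0 : y * ((m⁻¹ * q * m) * y⁻¹ * (m⁻¹ * q * m)⁻¹) ∈ Q :=
        mul_mem hD.y_mem (hQnorm _ hsS _ (inv_mem hD.y_mem))
      have hwq0 : m * y * m⁻¹ * q * (m * y * m⁻¹)⁻¹ * q⁻¹ =
          m * (y * ((m⁻¹ * q * m) * y⁻¹ * (m⁻¹ * q * m)⁻¹)) * m⁻¹ := by group
      generalize m * y * m⁻¹ * q * (m * y * m⁻¹)⁻¹ * q⁻¹ = w at hw1 hwQ hwq0
      generalize y * ((m⁻¹ * q * m) * y⁻¹ * (m⁻¹ * q * m)⁻¹) = q₀ at hq0 hwq0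
      obtain ⟨k, hk⟩ := htwo w (hQS hwQ)
      obtain ⟨j, hj⟩ := exists_pow_orderOf_two w hw1 k hk
      have hwj2 : w ^ j * w ^ j = 1 := by
        have h3 := pow_orderOf_eq_one (w ^ j)
        rw [hj, sq] at h3
        exact h3
      have hwj1 : w ^ j ≠ 1 := by
        intro h3
        rw [h3, orderOf_one] at hj
        exact absurd hj (by norm_num)
      have hwj : w ^ j = z := by
        rcases hD.invol _ (pow_mem hwQ j) hwj2 with h | h
        · exact absurd h hwj1
        · exact h
      have hconjpow : w ^ j = m * q₀ ^ j * m⁻¹ := by rw [hwq0, conj_pow]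
      have hq0j2 : q₀ ^ j * q₀ ^ j = 1 := by
        have h3 : q₀ ^ j = m⁻¹ * w ^ j * m := by rw [hconjpow]; group
        rw [h3]
        calc m⁻¹ * w ^ j * m * (m⁻¹ * w ^ j * m) = m⁻¹ * (w ^ j * w ^ j) * m := by group
          _ = 1 := by rw [hwj2]; group
      have hq0j1 : q₀ ^ j ≠ 1 := by
        intro h3
        apply hwj1
        rw [hconjpow, h3]; group
      have hq0j : q₀ ^ j = z := by
        rcases hD.invol _ (pow_mem hq0 j) hq0j2 with h | h
        · exact absurd h hq0j1
        · exact h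
      apply hne
      rw [hem, ← hq0j, ← hconjpow, hwj, hq0j]
    obtain ⟨q', hq', r', hr', hy1⟩ := hdec _ hy1S
    have hq'c : ∀ t ∈ Q, q' * t = t * q' := by
      intro t ht
      have h1 : q' = m * y * m⁻¹ * r'⁻¹ := by rw [hy1]; group
      have h2 := hcomm t ht r' hr'
      have h3 : r'⁻¹ * t = t * r'⁻¹ := by
        calc r'⁻¹ * t = r'⁻¹ * (t * r') * r'⁻¹ := by group
          _ = r'⁻¹ * (r' * t) * r'⁻¹ := by rw [h2]
          _ = t * r'⁻¹ := by group
      rw [h1]
      calc m * y * m⁻¹ * r'⁻¹ * t = m * y * m⁻¹ * (r'⁻¹ * t) := by group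
        _ = m * y * m⁻¹ * (t * r'⁻¹) := by rw [h3]
        _ = (m * y * m⁻¹ * t) * r'⁻¹ := by group
        _ = (t * (m * y * m⁻¹)) * r'⁻¹ := by rw [hcen t ht]
        _ = t * (m * y * m⁻¹ * r'⁻¹) := by group
    have hq'2 : q' * q' = 1 := by
      rcases hD.center q' hq' hq'c with rfl | rfl
      · rw [one_mul]
      · exact hD.z_sq
    have h4 := hcomm q' hq' r' hr'
    have h5 : e = r' * r' := by
      rw [← hy1sq, hy1]
      calc q' * r' * (q' * r') = q' * (r' * q') * r' := by group
        _ = q' * (q' * r') * r' := by rw [h4]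
        _ = (q' * q') * (r' * r') := by group
        _ = r' * r' := by rw [hq'2, one_mul]
    rw [h5]
    exact mul_mem hr' hr'
  -- the orbit of `z` in the centre of `S` and its product
  let _ : Fintype (Subgroup.center (S : Subgroup G)) := Fintype.ofFinite _
  have hCmem : ∀ c : Subgroup.center (S : Subgroup G),
      ((c : (S : Subgroup G)) : G) ∈ centralizer ((S : Subgroup G) : Set G) := by
    intro c
    rw [mem_centralizer_iff]
    intro t ht
    exact congrArg Subtype.val ((Subgroup.mem_center_iff.1 c.2) ⟨t, ht⟩)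
  let zc : Subgroup.center (S : Subgroup G) := ⟨⟨z, hzS⟩, by
    rw [Subgroup.mem_center_iff]
    intro t
    exact Subtype.ext (hinvS z hzS hD.z_sq t t.2).symm⟩
  let O : Finset (Subgroup.center (S : Subgroup G)) :=
    Finset.univ.filter (fun c => IsConj z ((c : (S : Subgroup G)) : G))
  have hOmem : ∀ c, c ∈ O ↔ IsConj z ((c : (S : Subgroup G)) : G) := by
    intro c
    simp only [O, Finset.mem_filter, Finset.mem_univ, true_and]
  have hzO : zc ∈ O := (hOmem zc).2 (IsConj.refl z)
  have hOsq : ∀ c ∈ O, c * c = 1 := by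
    intro c hc
    obtain ⟨g, hg⟩ := isConj_iff.1 ((hOmem c).1 hc)
    apply Subtype.ext; apply Subtype.ext
    show ((c : (S : Subgroup G)) : G) * ((c : (S : Subgroup G)) : G) = 1
    rw [← hg]
    calc g * z * g⁻¹ * (g * z * g⁻¹) = g * (z * z) * g⁻¹ := by group
      _ = 1 := by rw [hD.z_sq]; group
  have hpsq : (∏ c ∈ O, c) * (∏ c ∈ O, c) = 1 := by
    rw [← Finset.prod_mul_distrib]
    exact Finset.prod_eq_one hOsq
  have hp2 : (((∏ c ∈ O, c : Subgroup.center (S : Subgroup G)) : (S : Subgroup G)) : G) *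
      (((∏ c ∈ O, c : Subgroup.center (S : Subgroup G)) : (S : Subgroup G)) : G) = 1 :=
    congrArg (fun c : Subgroup.center (S : Subgroup G) => ((c : (S : Subgroup G)) : G)) hpsq
  have hp1 : (((∏ c ∈ O, c : Subgroup.center (S : Subgroup G)) : (S : Subgroup G)) : G) ≠ 1 := by
    intro hp
    have h1 : zc * ∏ c ∈ O.erase zc, c = ∏ c ∈ O, c := Finset.mul_prod_erase O (fun c => c) hzO
    have h2 : ∏ c ∈ O.erase zc, c ∈
        ((R.subgroupOf (S : Subgroup G)).subgroupOf (Subgroup.center (S : Subgroup G))) := by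
      apply Subgroup.prod_mem
      intro c hc
      obtain ⟨hc1, hc2⟩ := Finset.mem_erase.1 hc
      rw [mem_subgroupOf, mem_subgroupOf]
      apply hstruct _ (c : (S : Subgroup G)).2 ((hOmem c).1 hc2)
      intro h3
      apply hc1
      apply Subtype.ext; apply Subtype.ext
      exact h3
    rw [mem_subgroupOf, mem_subgroupOf] at h2
    have h3 : z * (((∏ c ∈ O.erase zc, c : Subgroup.center (S : Subgroup G)) :
        (S : Subgroup G)) : G) = 1 := by
      rw [← hp]
      exact congrArg (fun c : Subgroup.center (S : Subgroup G) => ((c : (S : Subgroup G)) : G)) h1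
    have h4 : z = ((((∏ c ∈ O.erase zc, c : Subgroup.center (S : Subgroup G)) :
        (S : Subgroup G)) : G))⁻¹ := eq_inv_of_mul_eq_one_left h3
    apply hD.z_ne
    apply hinter z hD.z_mem
    rw [h4]
    exact inv_mem h2
  -- invariance under the normalizer of `S`
  have hfix : ∀ n ∈ normalizer ((S : Subgroup G) : Set G),
      n * (((∏ c ∈ O, c : Subgroup.center (S : Subgroup G)) : (S : Subgroup G)) : G) * n⁻¹ =
        (((∏ c ∈ O, c : Subgroup.center (S : Subgroup G)) : (S : Subgroup G)) : G) := by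
    intro n hn
    have hnS : ∀ s ∈ (S : Subgroup G), n * s * n⁻¹ ∈ (S : Subgroup G) :=
      fun s hs => (mem_normalizer_iff.1 hn s).1 hs
    have hnC : ∀ c : Subgroup.center (S : Subgroup G),
        (⟨n * ((c : (S : Subgroup G)) : G) * n⁻¹, hnS _ (c : (S : Subgroup G)).2⟩ :
          (S : Subgroup G)) ∈ Subgroup.center (S : Subgroup G) := by
      intro c
      rw [Subgroup.mem_center_iff]
      intro t
      apply Subtype.ext
      have ht' : n⁻¹ * (t : G) * n ∈ (S : Subgroup G) :=
        conj_inv_mem_of_mem_normalizer _ n hn _ t.2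
      have h2 : n⁻¹ * (t : G) * n * ((c : (S : Subgroup G)) : G) =
          ((c : (S : Subgroup G)) : G) * (n⁻¹ * (t : G) * n) :=
        congrArg Subtype.val ((Subgroup.mem_center_iff.1 c.2) ⟨_, ht'⟩)
      show (t : G) * (n * ((c : (S : Subgroup G)) : G) * n⁻¹) =
        n * ((c : (S : Subgroup G)) : G) * n⁻¹ * (t : G)
      calc (t : G) * (n * ((c : (S : Subgroup G)) : G) * n⁻¹) =
          n * (n⁻¹ * (t : G) * n * ((c : (S : Subgroup G)) : G)) * n⁻¹ := by group
        _ = n * (((c : (S : Subgroup G)) : G) * (n⁻¹ * (t : G) * n)) * n⁻¹ := by rw [h2]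
        _ = n * ((c : (S : Subgroup G)) : G) * n⁻¹ * (t : G) := by group
    let ψ : Subgroup.center (S : Subgroup G) →* Subgroup.center (S : Subgroup G) :=
      { toFun := fun c => ⟨⟨n * ((c : (S : Subgroup G)) : G) * n⁻¹,
          hnS _ (c : (S : Subgroup G)).2⟩, hnC c⟩
        map_one' := by
          apply Subtype.ext; apply Subtype.ext
          show n * 1 * n⁻¹ = 1
          group
        map_mul' := by
          intro a b
          apply Subtype.ext; apply Subtype.ext
          show n * (((a : (S : Subgroup G)) : G) * ((b : (S : Subgroup G)) : G)) * n⁻¹ =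
            n * ((a : (S : Subgroup G)) : G) * n⁻¹ * (n * ((b : (S : Subgroup G)) : G) * n⁻¹)
          group }
    have hψ : ∀ c : Subgroup.center (S : Subgroup G),
        (((ψ c : Subgroup.center (S : Subgroup G)) : (S : Subgroup G)) : G) =
          n * ((c : (S : Subgroup G)) : G) * n⁻¹ := fun _ => rfl
    have hψinj : Function.Injective ψ := by
      intro a b hab
      have h1 : n * ((a : (S : Subgroup G)) : G) * n⁻¹ = n * ((b : (S : Subgroup G)) : G) * n⁻¹ := by
        rw [← hψ, ← hψ, hab]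
      apply Subtype.ext; apply Subtype.ext
      exact mul_left_cancel (mul_right_cancel h1)
    have hψbij : Function.Bijective ψ := Finite.injective_iff_bijective.1 hψinj
    have hψO : ∀ c, c ∈ O ↔ ψ c ∈ O := by
      intro c
      rw [hOmem, hOmem, hψ]
      constructor
      · intro h; exact h.trans (isConj_iff.2 ⟨n, rfl⟩)
      · intro h; exact h.trans (isConj_iff.2 ⟨n⁻¹, by group⟩)
    have h1 : ψ (∏ c ∈ O, c) = ∏ c ∈ O, ψ c := map_prod ψ _ O
    have h2 : ∏ c ∈ O, ψ c = ∏ c ∈ O, c :=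
      Finset.prod_bijective ψ hψbij hψO (fun _ _ => rfl)
    rw [← hψ, h1, h2]
  refine ⟨_, hord2 _ hp2 hp1, ((∏ c ∈ O, c : Subgroup.center (S : Subgroup G)) :
    (S : Subgroup G)).2, fun g hg => ?_⟩
  have hv : g * (((∏ c ∈ O, c : Subgroup.center (S : Subgroup G)) : (S : Subgroup G)) : G) * g⁻¹ *
      (g * (((∏ c ∈ O, c : Subgroup.center (S : Subgroup G)) : (S : Subgroup G)) : G) * g⁻¹) = 1 := by
    generalize (((∏ c ∈ O, c : Subgroup.center (S : Subgroup G)) : (S : Subgroup G)) : G) = p at hp2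
    calc g * p * g⁻¹ * (g * p * g⁻¹) = g * (p * p) * g⁻¹ := by group
      _ = 1 := by rw [hp2]; group
  obtain ⟨n, hn, hne⟩ := Sylow.conj_eq_normalizer_conj_of_mem_centralizer S _ g⁻¹
    (hCmem (∏ c ∈ O, c)) (by rw [inv_inv]; exact hcentS _ hg hv)
  rw [inv_inv] at hne
  rw [hne]
  have h1 := hfix n⁻¹ (inv_mem hn)
  rwa [inv_inv] at h1

/-- With the conclusion of the `Z*`-theorem for `G`, a group whose Sylow 2-subgroup is `Q × R`
with `Q` generalized quaternion and all involutions of `R` central in `R` is not simple. -/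
theorem quat_product_not_simple (S : Sylow 2 G) (Q R : Subgroup G)
    (hQR : Cfsg.IsInternalDirectProduct Q R (S : Subgroup G)) (m : ℕ) (hm : 2 ≤ m)
    (eQ : Q ≃* QuaternionGroup m)
    (hR : ∀ r ∈ R, orderOf r = 2 → ∀ s ∈ R, r * s = s * r)
    (hZ : ∀ u : G, orderOf u = 2 → u ∈ (S : Subgroup G) →
      (∀ g : G, g * u * g⁻¹ ∈ (S : Subgroup G) → g * u * g⁻¹ = u) →
      ∃ N : Subgroup G, N.Normal ∧ Odd (Nat.card N) ∧ ∀ g : G, u * g * u⁻¹ * g⁻¹ ∈ N) :
    ¬ IsSimpleGroup G := by
  intro hsimple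
  obtain ⟨z, y, hD⟩ := quatData_of_equiv Q m hm eQ
  obtain ⟨p, hp2, hpS, hiso⟩ := quat_product_exists_isolated S Q R hQR z y hD hR
  obtain ⟨N, hN, hodd, hcomm⟩ := hZ p hp2 hpS hiso
  rcases hsimple.eq_bot_or_eq_top_of_normal N hN with rfl | rfl
  · -- `p` is central
    have hpc : p ∈ Subgroup.center G := by
      rw [Subgroup.mem_center_iff]
      intro g
      have h1 := Subgroup.mem_bot.1 (hcomm g)
      calc g * p = (p * g * p⁻¹ * g⁻¹)⁻¹ * (p * g) := by group
        _ = p * g := by rw [h1, inv_one, one_mul]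
    have hp1 : p ≠ 1 := by
      rintro rfl
      rw [orderOf_one] at hp2
      exact absurd hp2 (by norm_num)
    rcases hsimple.eq_bot_or_eq_top_of_normal (Subgroup.center G) inferInstance with h | h
    · rw [h] at hpc
      exact hp1 (Subgroup.mem_bot.1 hpc)
    · -- `G` is commutative, but `Q` is not
      have hc : ∀ a b : G, a * b = b * a := by
        intro a b
        have hb : b ∈ Subgroup.center G := by rw [h]; exact Subgroup.mem_top b
        exact (Subgroup.mem_center_iff.1 hb a)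
      rcases hD.center y hD.y_mem (fun t _ => hc y t) with h1 | h1
      · apply hD.z_ne
        rw [← hD.y_sq, h1, one_mul]
      · apply hD.z_ne
        have h2 := hD.y_sq
        rw [h1, hD.z_sq] at h2
        exact h2.symm
  · -- `G` has odd order
    rw [Subgroup.card_top] at hodd
    have h1 : 2 ∣ Nat.card G := by rw [← hp2]; exact orderOf_dvd_natCard p
    exact (Nat.not_even_iff_odd.2 hodd) (even_iff_two_dvd.2 h1)

end QuatProduct

end Cfsg.Agent.Lib.Helper52
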