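import Mathlib
import Cfsg.Agent.Lib.Helper52.DihedralSylow
import Cfsg.Agent.Lib.Helper52.KleinFusion
import Cfsg.Agent.Lib.Helper52.QDGeneral
import Cfsg.Agent.Lib.Helper73.DihedralIso
import Cfsg.Agent.Lib.Helper32.SylowConj
import Cfsg.Agent.Lib.Helper20.QD
import Cfsg.Agent.S0228

/-!
# Groups with a normal Sylow 2-subgroup and cyclic quotient, in groups with cyclic or dihedral
Sylow 2-subgroups
-/

set_option autoImplicit false

namespace Cfsg.Agent.Lib.Helper52

open Subgroup

/-- A finite 2-group with a cyclic subgroup `⟨y⟩` of "index at most 2" outside of which all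
elements are involutions is cyclic or dihedral. -/
theorem cyclic_or_dihedral_of_data {Y : Type*} [Group Y] [Finite Y] (h2 : IsPGroup 2 Y) (y : Y)
    (hC : ∀ a b : Y, a ∉ zpowers y → b ∉ zpowers y → a * b ∈ zpowers y)
    (hinv : ∀ b : Y, b ∉ zpowers y → b * b = 1) :
    IsCyclic Y ∨ ∃ k : ℕ, 1 ≤ k ∧ Nonempty (Y ≃* DihedralGroup (2 ^ k)) := by
  have : Fact (Nat.Prime 2) := ⟨Nat.prime_two⟩
  by_cases htop : ∀ g : Y, g ∈ zpowers y
  · left
    exact isCyclic_of_orderOf_eq_card y (orderOf_eq_card_of_forall_mem_zpowers htop)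
  · rw [not_forall] at htop
    obtain ⟨b, hb⟩ := htop
    obtain ⟨k0, hk0⟩ := h2 y
    obtain ⟨k, -, hk⟩ := (Nat.dvd_prime_pow Nat.prime_two).1 (orderOf_dvd_of_pow_eq_one hk0)
    have hidx : (zpowers y).index = 2 := by
      rw [index_eq_two_iff]
      refine ⟨b, fun c => ?_⟩
      by_cases hc : c ∈ zpowers y
      · right
        exact ⟨hc, fun h => hb (by simpa using mul_mem (inv_mem hc) h)⟩
      · left; exact ⟨hC c b hc hb, hc⟩
    have hcard : Nat.card Y = 2 * 2 ^ k := by
      have h4 := index_mul_card (zpowers y)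
      rw [hidx, Nat.card_zpowers, hk] at h4
      exact h4.symm
    have hby : b * y ∉ zpowers y := fun h =>
      hb (by simpa using mul_mem h (inv_mem (mem_zpowers y)))
    have hbb := hinv b hb
    have hbyby := hinv (b * y) hby
    have hbinv : b⁻¹ = b := inv_eq_of_mul_eq_one_left hbb
    have hconj : b * y * b⁻¹ = y⁻¹ := by
      rw [hbinv]
      have h5 : b * y * b * y = 1 := by rw [mul_assoc (b * y)]; exact hbyby
      exact eq_inv_of_mul_eq_one_left h5
    rcases Nat.eq_zero_or_pos k with rfl | hkpos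
    · left
      rw [pow_zero, mul_one] at hcard
      exact isCyclic_of_prime_card hcard
    · right
      refine ⟨k, hkpos, ?_⟩
      exact Cfsg.Agent.Lib.Helper73.nonempty_mulEquiv_dihedralGroup (2 ^ k) y b hk
        (by rw [sq]; exact hbb) hconj hb hcard

/-- Elements of 2-power order lie in a normal Sylow 2-subgroup. -/
theorem mem_of_normal_sylow {H : Type*} [Group H] [Finite H] (S : Sylow 2 H)
    [hn : (S : Subgroup H).Normal] (x : H) (hx : ∃ k : ℕ, x ^ 2 ^ k = 1) :
    x ∈ (S : Subgroup H) := by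
  have : Fact (Nat.Prime 2) := ⟨Nat.prime_two⟩
  obtain ⟨h, -, hh⟩ := Cfsg.Agent.Lib.Helper32.exists_conj_mem_sylow_of_mem ⊤ S le_top x
    (mem_top x) hx
  have h1 := hn.conj_mem _ hh h⁻¹
  simpa [mul_assoc] using h1

/-- If the quotient by a normal Sylow 2-subgroup is cyclic, some element of odd order generates
it, of order the index. -/
theorem exists_odd_generator {H : Type*} [Group H] [Finite H] (S : Sylow 2 H)
    [(S : Subgroup H).Normal] (hcyc : IsCyclic (H ⧸ (S : Subgroup H))) :
    ∃ h₁ : H, Odd (orderOf h₁) ∧ orderOf h₁ = (S : Subgroup H).index := by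
  have : Fact (Nat.Prime 2) := ⟨Nat.prime_two⟩
  obtain ⟨g, hg⟩ := hcyc.exists_generator
  obtain ⟨h, rfl⟩ := QuotientGroup.mk_surjective g
  have hcop : Nat.Coprime (Nat.card (S : Subgroup H)) (S : Subgroup H).index :=
    S.card_coprime_index
  have hordq : orderOf (QuotientGroup.mk h : H ⧸ (S : Subgroup H)) = (S : Subgroup H).index := by
    rw [orderOf_eq_card_of_forall_mem_zpowers hg, ← Subgroup.index_eq_card]
  have hqS : h ^ (S : Subgroup H).index ∈ (S : Subgroup H) := by
    rw [← QuotientGroup.eq_one_iff, QuotientGroup.mk_pow, ← hordq, pow_orderOf_eq_one]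
  have h1 : (h ^ Nat.card (S : Subgroup H)) ^ (S : Subgroup H).index = 1 := by
    rw [← pow_mul, mul_comm, pow_mul]
    have h0 : (⟨h ^ (S : Subgroup H).index, hqS⟩ : (S : Subgroup H)) ^
        Nat.card (S : Subgroup H) = 1 := pow_card_eq_one'
    exact congrArg Subtype.val h0
  have h2 : orderOf (h ^ Nat.card (S : Subgroup H)) ∣ (S : Subgroup H).index :=
    orderOf_dvd_of_pow_eq_one h1
  have h3 : orderOf ((QuotientGroup.mk (h ^ Nat.card (S : Subgroup H)) : H ⧸ (S : Subgroup H))) =
      (S : Subgroup H).index := by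
    rw [QuotientGroup.mk_pow, Nat.Coprime.orderOf_pow (by rw [hordq]; exact hcop.symm), hordq]
  have h4 : (S : Subgroup H).index ∣ orderOf (h ^ Nat.card (S : Subgroup H)) := by
    rw [← h3]
    exact orderOf_map_dvd (QuotientGroup.mk' (S : Subgroup H)) (h ^ Nat.card (S : Subgroup H))
  have h5 : orderOf (h ^ Nat.card (S : Subgroup H)) = (S : Subgroup H).index :=
    Nat.dvd_antisymm h2 h4
  refine ⟨h ^ Nat.card (S : Subgroup H), ?_, h5⟩
  rw [h5, ← Nat.not_even_iff_odd, even_iff_two_dvd]
  exact S.not_dvd_index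

section Klein

variable {Y : Type*} [Group Y]

theorem comm_of_sq (hsq : ∀ b : Y, b * b = 1) (a b : Y) : a * b = b * a := by
  have ha : a⁻¹ = a := inv_eq_of_mul_eq_one_left (hsq a)
  have hb : b⁻¹ = b := inv_eq_of_mul_eq_one_left (hsq b)
  have hab : (a * b)⁻¹ = a * b := inv_eq_of_mul_eq_one_left (hsq (a * b))
  rw [← hab, mul_inv_rev, ha, hb]

theorem isKleinFour_of_sq (hsq : ∀ b : Y, b * b = 1) (h4 : Nat.card Y = 4) : IsKleinFour Y := by
  refine ⟨h4, ?_⟩
  have h1 : Monoid.exponent Y ∣ 2 :=
    Monoid.exponent_dvd_of_forall_pow_eq_one (fun g => by rw [sq]; exact hsq g)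
  rcases (Nat.dvd_prime Nat.prime_two).1 h1 with h | h
  · exfalso
    rw [Monoid.exp_eq_one_iff] at h
    have := Nat.card_of_subsingleton (1 : Y)
    omega
  · exact h

/-- An automorphism of a four-group fixing two distinct involutions is trivial. -/
theorem klein_aut_eq_one (hsq : ∀ b : Y, b * b = 1) (h4 : Nat.card Y = 4) (τ : MulAut Y)
    (x y : Y) (hx : x ≠ 1) (hy : y ≠ 1) (hxy : x ≠ y) (h1 : τ x = x) (h2 : τ y = y) : τ = 1 := by
  have := isKleinFour_of_sq hsq h4
  ext z
  rw [MulAut.one_apply]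
  by_cases hz1 : z = 1
  · rw [hz1, map_one]
  by_cases hzx : z = x
  · rw [hzx, h1]
  by_cases hzy : z = y
  · rw [hzy, h2]
  rw [IsKleinFour.eq_mul_of_ne_all hx hy hxy hz1 hzx hzy, map_mul, h1, h2]

/-- An automorphism of odd order of a four-group fixing an involution is trivial. -/
theorem klein_odd_aut_fix (hsq : ∀ b : Y, b * b = 1) (h4 : Nat.card Y = 4) (σ : MulAut Y)
    (m : ℕ) (hm : Odd m) (hσ : σ ^ m = 1) (z : Y) (hz : z ≠ 1) (hfix : σ z = z) : σ = 1 := by
  have hK := isKleinFour_of_sq hsq h4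
  have hfin : Finite Y := Nat.finite_of_card_ne_zero (by rw [h4]; norm_num)
  obtain ⟨x, hx1, hxz⟩ : ∃ x : Y, x ≠ 1 ∧ x ≠ z := by
    by_contra hcon
    have hcon' : ∀ x : Y, x ≠ 1 → x = z := fun x hx => by
      by_contra h
      exact hcon ⟨x, hx, h⟩
    have hsub : (Set.univ : Set Y) ⊆ {1, z} := by
      intro x _
      by_cases hx : x = 1
      · left; exact hx
      · right; exact hcon' x hx
    have h5 := Set.ncard_le_ncard hsub (Set.toFinite _)
    rw [Set.ncard_univ, h4] at h5
    have h6 : ({1, z} : Set Y).ncard ≤ 2 := by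
      have h7 := Set.ncard_insert_le (1 : Y) {z}
      rw [Set.ncard_singleton] at h7
      exact h7
    omega
  have hσx1 : σ x ≠ 1 := fun h => hx1 ((map_eq_one_iff σ σ.injective).1 h)
  have hσxz : σ x ≠ z := fun h => hxz (σ.injective (h.trans hfix.symm))
  have hsq2 : σ ^ 2 = 1 ∨ σ = 1 := by
    by_cases hσx : σ x = x
    · right; exact klein_aut_eq_one hsq h4 σ x z hx1 hz hxz hσx hfix
    · left
      have h7 : σ x = x * z := IsKleinFour.eq_mul_of_ne_all hx1 hz hxz hσx1 hσx hσxz
      apply klein_aut_eq_one hsq h4 (σ ^ 2) x z hx1 hz hxz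
      · rw [sq, MulAut.mul_apply, h7, map_mul, h7, hfix, mul_assoc, hsq z, mul_one]
      · rw [sq, MulAut.mul_apply, hfix, hfix]
  rcases hsq2 with h | h
  · have h8 : orderOf σ ∣ Nat.gcd 2 m :=
      Nat.dvd_gcd (orderOf_dvd_of_pow_eq_one h) (orderOf_dvd_of_pow_eq_one hσ)
    rw [Nat.Coprime.gcd_eq_one (Nat.coprime_two_left.2 hm)] at h8
    exact orderOf_eq_one_iff.1 (Nat.dvd_one.1 h8)
  · exact h

/-- An automorphism of odd order of a four-group has order dividing 3. -/
theorem klein_odd_aut_cube (hsq : ∀ b : Y, b * b = 1) (h4 : Nat.card Y = 4) (σ : MulAut Y)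
    (m : ℕ) (hm : Odd m) (hσ : σ ^ m = 1) : σ ^ 3 = 1 := by
  have hK := isKleinFour_of_sq hsq h4
  have hfin : Finite Y := Nat.finite_of_card_ne_zero (by rw [h4]; norm_num)
  obtain ⟨x, hx1⟩ : ∃ x : Y, x ≠ 1 := by
    by_contra hcon
    have hcon' : ∀ x : Y, x = 1 := fun x => by
      by_contra h
      exact hcon ⟨x, h⟩
    have : Subsingleton Y := ⟨fun a b => by rw [hcon' a, hcon' b]⟩
    have := Nat.card_of_subsingleton (1 : Y)
    omega
  by_cases hσx : σ x = x
  · rw [klein_odd_aut_fix hsq h4 σ m hm hσ x hx1 hσx, one_pow]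
  have hy1 : σ x ≠ 1 := fun h => hx1 ((map_eq_one_iff σ σ.injective).1 h)
  by_cases hσy : σ (σ x) = σ x
  · rw [klein_odd_aut_fix hsq h4 σ m hm hσ (σ x) hy1 hσy, one_pow]
  have hσy1 : σ (σ x) ≠ 1 := fun h => hy1 ((map_eq_one_iff σ σ.injective).1 h)
  by_cases hσyx : σ (σ x) = x
  · have h2 : σ ^ 2 = 1 := by
      apply klein_aut_eq_one hsq h4 (σ ^ 2) x (σ x) hx1 hy1 (Ne.symm hσx)
      · rw [sq, MulAut.mul_apply, hσyx]
      · rw [sq, MulAut.mul_apply, hσyx]
    have h8 : orderOf σ ∣ Nat.gcd 2 m :=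
      Nat.dvd_gcd (orderOf_dvd_of_pow_eq_one h2) (orderOf_dvd_of_pow_eq_one hσ)
    rw [Nat.Coprime.gcd_eq_one (Nat.coprime_two_left.2 hm)] at h8
    rw [orderOf_eq_one_iff.1 (Nat.dvd_one.1 h8), one_pow]
  · have h7 : σ (σ x) = x * σ x :=
      IsKleinFour.eq_mul_of_ne_all hx1 hy1 (Ne.symm hσx) hσy1 hσyx hσy
    have h9 : σ (σ (σ x)) = x := by
      rw [h7, map_mul, h7, comm_of_sq hsq x (σ x), ← mul_assoc, hsq, one_mul]
    apply klein_aut_eq_one hsq h4 (σ ^ 3) x (σ x) hx1 hy1 (Ne.symm hσx)
    · rw [pow_succ, pow_succ, pow_one, MulAut.mul_apply, MulAut.mul_apply, h9]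
    · rw [pow_succ, pow_succ, pow_one, MulAut.mul_apply, MulAut.mul_apply, h9]

end Klein

open Cfsg.Agent.Lib.Helper20 in
/-- Main structure theorem: in a group all of whose 2-subgroups carry "cyclic or dihedral" data
and whose elementary abelian subgroups of order 4 are self-centralizing, a subgroup with a normal
Sylow 2-subgroup and cyclic quotient is cyclic, dihedral or `A₄`. -/
theorem two_by_cyclic_structure {G : Type*} [Group G] [Finite G]
    (hdata : ∀ A : Subgroup G, IsPGroup 2 A → ∃ ρ : G, (∀ s ∈ A, s ∉ zpowers ρ → s * s = 1) ∧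
      (∀ s1 ∈ A, ∀ s2 ∈ A, s1 ∉ zpowers ρ → s2 ∉ zpowers ρ → s1 * s2 ∈ zpowers ρ))
    (hcent : ∀ K : Subgroup G, Nat.card K = 4 → (∀ k ∈ K, k * k = 1) →
      centralizer (K : Set G) = K)
    (H : Subgroup G) (S : Sylow 2 H) [(S : Subgroup H).Normal]
    (hcyc : IsCyclic (H ⧸ (S : Subgroup H))) :
    IsCyclic H ∨ (∃ n : ℕ, Nonempty (H ≃* DihedralGroup (2 ^ n))) ∨
      Nonempty (H ≃* alternatingGroup (Fin 4)) := by
  have : Fact (Nat.Prime 2) := ⟨Nat.prime_two⟩
  have hιinj : Function.Injective (H.subtype.comp (S : Subgroup H).subtype) :=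
    H.subtype_injective.comp (S : Subgroup H).subtype_injective
  have hS2 : IsPGroup 2 (S : Subgroup H) := S.isPGroup'
  have hA2 : IsPGroup 2 ((S : Subgroup H).map H.subtype) := hS2.map H.subtype
  obtain ⟨ρ, hρ1, hρ2⟩ := hdata _ hA2
  obtain ⟨y, hy⟩ := exists_zpowers_comap (H.subtype.comp (S : Subgroup H).subtype) hιinj ρ
  have hmem : ∀ b : (S : Subgroup H), ((b : H) : G) ∈ (S : Subgroup H).map H.subtype :=
    fun b => Subgroup.mem_map_of_mem H.subtype b.2
  have hC : ∀ a b : (S : Subgroup H), a ∉ zpowers y → b ∉ zpowers y → a * b ∈ zpowers y := by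
    intro a b ha hb
    rw [hy] at ha hb ⊢
    exact hρ2 _ (hmem a) _ (hmem b) ha hb
  have hinv : ∀ b : (S : Subgroup H), b ∉ zpowers y → b * b = 1 := by
    intro b hb
    rw [hy] at hb
    have h3 := hρ1 _ (hmem b) hb
    apply Subtype.ext; apply Subtype.ext
    exact h3
  obtain ⟨h₁, hodd, hord⟩ := exists_odd_generator S hcyc
  have hσ : (MulAut.conjNormal h₁ : MulAut (S : Subgroup H)) ^ orderOf h₁ = 1 := by
    rw [← map_pow, pow_orderOf_eq_one, map_one]
  have hstruct := cyclic_or_dihedral_of_data hS2 y hC hinv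
  have htop : (S : Subgroup H).index = 1 → IsCyclic H ∨
      (∃ n : ℕ, Nonempty (H ≃* DihedralGroup (2 ^ n))) ∨
      Nonempty (H ≃* alternatingGroup (Fin 4)) := by
    intro hidx
    rw [Subgroup.index_eq_one] at hidx
    have e0 : (S : Subgroup H) ≃* H := (MulEquiv.subgroupCongr hidx).trans Subgroup.topEquiv
    rcases hstruct with hc | ⟨k, hk, ⟨e⟩⟩
    · left; exact (e0.isCyclic).1 hc
    · right; left; exact ⟨k, ⟨e0.symm.trans e⟩⟩
  have hcentral : ∀ g : H, (MulAut.conjNormal g : MulAut (S : Subgroup H)) = 1 →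
      ∀ s : (S : Subgroup H), g * (s : H) = (s : H) * g := by
    intro g hg s
    have h3 : ((MulAut.conjNormal g s : (S : Subgroup H)) : H) = g * s * g⁻¹ :=
      MulAut.conjNormal_apply g s
    rw [hg, MulAut.one_apply] at h3
    calc g * (s : H) = g * s * g⁻¹ * g := by group
      _ = s * g := by rw [← h3]
  rcases aut_eq_one_or_four hS2 y hC hinv _ _ hodd hσ with h1 | ⟨hsq, h4⟩
  · have hcomm := hcentral h₁ h1
    rcases hstruct with hc | ⟨k, hk, ⟨e⟩⟩
    · left
      obtain ⟨s, hs⟩ := hc.exists_generator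
      have hos : orderOf (s : H) = Nat.card (S : Subgroup H) := by
        rw [Subgroup.orderOf_coe, orderOf_eq_card_of_forall_mem_zpowers hs]
      have hcop : Nat.Coprime (orderOf (s : H)) (orderOf h₁) := by
        rw [hos, hord]; exact S.card_coprime_index
      have h5 := Commute.orderOf_mul_eq_mul_orderOf_of_coprime (hcomm s).symm hcop
      apply isCyclic_of_orderOf_eq_card ((s : H) * h₁)
      rw [h5, hos, hord, mul_comm, Subgroup.index_mul_card]
    · apply htop
      set a : (S : Subgroup H) := e.symm (DihedralGroup.r (qq k)) with ha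
      set b : (S : Subgroup H) := e.symm (DihedralGroup.sr 0) with hb
      have haa : a * a = 1 := by
        rw [ha, ← map_mul, DihedralGroup.r_mul_r, ← two_mul, two_mul_qq hk, ← DihedralGroup.one_def,
          map_one]
      have hbb : b * b = 1 := by rw [hb, ← map_mul, DihedralGroup.sr_mul_self, map_one]
      have hab : a * b = b * a := by
        rw [ha, hb, ← map_mul, ← map_mul, DihedralGroup.r_mul_sr, DihedralGroup.sr_mul_r]
        congr 2
        linear_combination (-1 : ZMod (2 ^ k)) * two_mul_qq hk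
      have ha1 : a ≠ 1 := by
        intro h
        have h0 : DihedralGroup.r (qq k) = (1 : DihedralGroup (2 ^ k)) := by
          apply e.symm.injective; rw [map_one]; exact h
        rw [DihedralGroup.one_def] at h0
        exact qq_ne_zero hk (DihedralGroup.r.inj h0)
      have hb1 : b ≠ 1 := by
        intro h
        have h0 : DihedralGroup.sr 0 = (1 : DihedralGroup (2 ^ k)) := by
          apply e.symm.injective; rw [map_one]; exact h
        rw [DihedralGroup.one_def] at h0
        cases h0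
      have hne : a ≠ b := by
        intro h
        have h0 : DihedralGroup.r (qq k) = DihedralGroup.sr (0 : ZMod (2 ^ k)) :=
          e.symm.injective h
        cases h0
      have hxx : ((a : H) : G) * ((a : H) : G) = 1 := by
        have := congrArg (fun t : (S : Subgroup H) => ((t : H) : G)) haa
        simpa using this
      have hyy : ((b : H) : G) * ((b : H) : G) = 1 := by
        have := congrArg (fun t : (S : Subgroup H) => ((t : H) : G)) hbb
        simpa using this
      have hxy : ((a : H) : G) * ((b : H) : G) = ((b : H) : G) * ((a : H) : G) := by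
        have := congrArg (fun t : (S : Subgroup H) => ((t : H) : G)) hab
        simpa using this
      have hx1 : ((a : H) : G) ≠ 1 := fun h => ha1 (Subtype.ext (Subtype.ext h))
      have hy1 : ((b : H) : G) ≠ 1 := fun h => hb1 (Subtype.ext (Subtype.ext h))
      have hxne : ((a : H) : G) ≠ ((b : H) : G) := fun h => hne (Subtype.ext (Subtype.ext h))
      obtain ⟨U, hU, hUmem⟩ := exists_isKleinFour_of_comm ((a : H) : G) ((b : H) : G) hxx hyy hxy
        hx1 hy1 hxne
      have hU4 : Nat.card U = 4 := hU.card_four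
      have hUsq : ∀ t ∈ U, t * t = 1 := by
        intro t ht
        rcases (hUmem t).1 ht with rfl | rfl | rfl | rfl
        · exact one_mul 1
        · exact hxx
        · exact hyy
        · have e1 : ((a : H) : G) * ((b : H) : G) * (((a : H) : G) * ((b : H) : G)) =
              ((a : H) : G) * (((b : H) : G) * ((a : H) : G)) * ((b : H) : G) := by group
          have e2 : ((a : H) : G) * (((a : H) : G) * ((b : H) : G)) * ((b : H) : G) =
              (((a : H) : G) * ((a : H) : G)) * (((b : H) : G) * ((b : H) : G)) := by group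
          rw [e1, ← hxy, e2, hxx, hyy, one_mul]
      have hUc := hcent U hU4 hUsq
      have hh1 : ((h₁ : H) : G) ∈ centralizer (U : Set G) := by
        rw [mem_centralizer_iff]
        intro t ht
        have hca := congrArg (fun t : H => (t : G)) (hcomm a)
        have hcb := congrArg (fun t : H => (t : G)) (hcomm b)
        simp only [Subgroup.coe_mul] at hca hcb
        rcases (hUmem t).1 ht with rfl | rfl | rfl | rfl
        · rw [one_mul, mul_one]
        · exact hca.symm
        · exact hcb.symm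
        · rw [mul_assoc, ← hcb, ← mul_assoc, ← hca, mul_assoc]
      rw [hUc] at hh1
      have hh2 : h₁ * h₁ = 1 := by
        apply Subtype.ext
        exact hUsq _ hh1
      have hh3 : orderOf h₁ ∣ 2 := orderOf_dvd_of_pow_eq_one (by rw [sq]; exact hh2)
      have hh4 : orderOf h₁ = 1 := by
        rcases (Nat.dvd_prime Nat.prime_two).1 hh3 with h | h
        · exact h
        · rw [h] at hodd; exact absurd hodd (by decide)
      rw [← hord]; exact hh4
  · have hA4 : Nat.card ((S : Subgroup H).map H.subtype) = 4 := by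
      rw [Subgroup.card_map_of_injective H.subtype_injective]; exact h4
    have hAsq : ∀ t ∈ (S : Subgroup H).map H.subtype, t * t = 1 := by
      rintro _ ⟨s, hs, rfl⟩
      have := congrArg (fun t : (S : Subgroup H) => ((t : H) : G)) (hsq ⟨s, hs⟩)
      simpa using this
    have hAc := hcent _ hA4 hAsq
    have hkey : ∀ g : H, (∀ s : (S : Subgroup H), g * (s : H) = (s : H) * g) → g * g = 1 := by
      intro g hg
      have hgC : (g : G) ∈ centralizer (((S : Subgroup H).map H.subtype : Subgroup G) : Set G) := by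
        rw [mem_centralizer_iff]
        rintro _ ⟨s, hs, rfl⟩
        have := congrArg (fun t : H => (t : G)) (hg ⟨s, hs⟩)
        simpa using this.symm
      rw [hAc] at hgC
      apply Subtype.ext
      exact hAsq _ hgC
    have hσ3 := klein_odd_aut_cube hsq h4 (MulAut.conjNormal h₁ : MulAut (S : Subgroup H))
      (orderOf h₁) hodd hσ
    rw [← map_pow] at hσ3
    have h6 := hkey (h₁ ^ 3) (hcentral _ hσ3)
    have h7 : orderOf h₁ ∣ 3 * 2 :=
      orderOf_dvd_of_pow_eq_one (by rw [pow_mul, sq]; exact h6)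
    have h8 : orderOf h₁ ∣ 3 :=
      (Nat.coprime_two_right.2 hodd).dvd_of_dvd_mul_right h7
    rcases (Nat.dvd_prime Nat.prime_three).1 h8 with h9 | h9
    · exact htop (by rw [← hord]; exact h9)
    · right; right
      have hcard : Nat.card H = 12 := by
        rw [← Subgroup.index_mul_card (S : Subgroup H), ← hord, h9, h4]
      apply Cfsg.Agent.S0228.result hcard
      intro z hz hzc
      have hzS : z ∈ (S : Subgroup H) :=
        mem_of_normal_sylow S z ⟨1, by rw [pow_one, ← hz, pow_orderOf_eq_one]⟩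
      have hz1 : (⟨z, hzS⟩ : (S : Subgroup H)) ≠ 1 := by
        intro h
        have h0 : z = 1 := congrArg Subtype.val h
        rw [h0, orderOf_one] at hz; norm_num at hz
      have hfix : (MulAut.conjNormal h₁ : MulAut (S : Subgroup H)) ⟨z, hzS⟩ = ⟨z, hzS⟩ := by
        apply Subtype.ext
        rw [MulAut.conjNormal_apply]
        rw [Subgroup.mem_center_iff] at hzc
        rw [hzc h₁, mul_inv_cancel_right]
      have hσ1 := klein_odd_aut_fix hsq h4 _ (orderOf h₁) hodd hσ _ hz1 hfix
      have h10 := hkey h₁ (hcentral _ hσ1)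
      have h11 : orderOf h₁ ∣ 2 := orderOf_dvd_of_pow_eq_one (by rw [sq]; exact h10)
      rw [h9] at h11; norm_num at h11

theorem not_isCyclic_of_card_four_of_sq {G : Type*} [Group G] (K : Subgroup G)
    (h4 : Nat.card K = 4) (hsq : ∀ k ∈ K, k * k = 1) : ¬ IsCyclic K := by
  intro hc
  obtain ⟨g, hg⟩ := hc.exists_generator
  have h1 : orderOf g = 4 := by rw [orderOf_eq_card_of_forall_mem_zpowers hg, h4]
  have h2 : g * g = 1 := Subtype.ext (hsq g g.2)
  have h3 : orderOf g ∣ 2 := orderOf_dvd_of_pow_eq_one (by rw [sq]; exact h2)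
  rw [h1] at h3; norm_num at h3

/-- The data needed by `two_by_cyclic_structure`, for cyclic Sylow 2-subgroups. -/
theorem two_by_cyclic_data_of_cyclic {G : Type*} [Group G] [Finite G] (P : Sylow 2 G)
    (hP : IsCyclic P) :
    (∀ A : Subgroup G, IsPGroup 2 A → ∃ ρ : G, (∀ s ∈ A, s ∉ zpowers ρ → s * s = 1) ∧
      (∀ s1 ∈ A, ∀ s2 ∈ A, s1 ∉ zpowers ρ → s2 ∉ zpowers ρ → s1 * s2 ∈ zpowers ρ)) ∧
    (∀ K : Subgroup G, Nat.card K = 4 → (∀ k ∈ K, k * k = 1) → centralizer (K : Set G) = K) := by
  have : Fact (Nat.Prime 2) := ⟨Nat.prime_two⟩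
  have key : ∀ A : Subgroup G, IsPGroup 2 A → IsCyclic A := by
    intro A hA
    obtain ⟨S1, hS1⟩ := hA.exists_le_sylow
    have : IsCyclic (S1 : Subgroup G) := ((Sylow.equiv S1 P).isCyclic).2 hP
    exact Subgroup.isCyclic_of_le hS1
  constructor
  · intro A hA
    have hc := key A hA
    obtain ⟨g, hg⟩ := hc.exists_generator
    have hin : ∀ s ∈ A, s ∈ zpowers (g : G) := by
      intro s hs
      exact (mem_zpowers_subtype_iff A g g.2 ⟨s, hs⟩).1 (hg ⟨s, hs⟩)
    exact ⟨g, fun s hs hn => absurd (hin s hs) hn,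
      fun s1 hs1 s2 hs2 hn _ => absurd (hin s1 hs1) hn⟩
  · intro K h4 hsq
    exact absurd (key K (IsPGroup.of_card (n := 2) (by rw [h4]; norm_num)))
      (not_isCyclic_of_card_four_of_sq K h4 hsq)

/-- The data needed by `two_by_cyclic_structure`, for dihedral Sylow 2-subgroups all of whose
four-subgroups are self-centralizing. -/
theorem two_by_cyclic_data_of_dihedral {G : Type*} [Group G] [Finite G] (P : Sylow 2 G) (n : ℕ)
    (e : (P : Subgroup G) ≃* DihedralGroup (2 ^ n))
    (hK : ∀ K : Subgroup G, K ≤ P → Nat.card K = 4 → (∀ k ∈ K, k ^ 2 = 1) →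
      centralizer (K : Set G) = K) :
    (∀ A : Subgroup G, IsPGroup 2 A → ∃ ρ : G, (∀ s ∈ A, s ∉ zpowers ρ → s * s = 1) ∧
      (∀ s1 ∈ A, ∀ s2 ∈ A, s1 ∉ zpowers ρ → s2 ∉ zpowers ρ → s1 * s2 ∈ zpowers ρ)) ∧
    (∀ K : Subgroup G, Nat.card K = 4 → (∀ k ∈ K, k * k = 1) → centralizer (K : Set G) = K) := by
  have : Fact (Nat.Prime 2) := ⟨Nat.prime_two⟩
  constructor
  · intro A hA
    exact sylow_dihedral_data P (2 ^ n) e A hA
  · intro K h4 hsq
    have hK2 : IsPGroup 2 K := IsPGroup.of_card (n := 2) (by rw [h4]; norm_num)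
    obtain ⟨g, -, hg⟩ := Cfsg.Agent.Lib.Helper32.exists_conj_mem_sylow_of_le ⊤ P le_top K hK2
      le_top
    have hcomm : ∀ a ∈ K, ∀ b ∈ K, a * b = b * a := by
      intro a ha b hb
      have := comm_of_sq (Y := K) (fun t => Subtype.ext (hsq t t.2)) ⟨a, ha⟩ ⟨b, hb⟩
      exact congrArg Subtype.val this
    have hK'P : K.map (MulAut.conj g).toMonoidHom ≤ P := by
      rintro _ ⟨x, hx, rfl⟩
      exact hg x hx
    have hK'4 : Nat.card (K.map (MulAut.conj g).toMonoidHom) = 4 := by
      rw [Subgroup.card_map_of_injective (MulAut.conj g).injective]; exact h4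
    have hK'sq : ∀ k ∈ K.map (MulAut.conj g).toMonoidHom, k ^ 2 = 1 := by
      rintro _ ⟨x, hx, rfl⟩
      rw [← map_pow, sq, hsq x hx, map_one]
    have hc := hK _ hK'P hK'4 hK'sq
    apply le_antisymm
    · intro c hc'
      have h1 : g * c * g⁻¹ ∈ centralizer ((K.map (MulAut.conj g).toMonoidHom : Subgroup G) :
          Set G) := by
        rw [mem_centralizer_iff]
        rintro _ ⟨x, hx, rfl⟩
        rw [mem_centralizer_iff] at hc'
        have h2 := hc' x hx
        show g * x * g⁻¹ * (g * c * g⁻¹) = g * c * g⁻¹ * (g * x * g⁻¹)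
        calc g * x * g⁻¹ * (g * c * g⁻¹) = g * (x * c) * g⁻¹ := by group
          _ = g * (c * x) * g⁻¹ := by rw [h2]
          _ = _ := by group
      rw [hc] at h1
      obtain ⟨x, hx, hxe⟩ := h1
      have h3 : g * x * g⁻¹ = g * c * g⁻¹ := hxe
      have h4' : x = c := by simpa using h3
      rw [← h4']; exact hx
    · intro a ha
      rw [mem_centralizer_iff]
      intro b hb
      exact hcomm b hb a ha

theorem isCyclic_quotient_of_eq_top {X : Type*} [Group X] (N : Subgroup X) [N.Normal]
    (h : N = ⊤) : IsCyclic (X ⧸ N) := by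
  subst h
  have : Subsingleton (X ⧸ (⊤ : Subgroup X)) := QuotientGroup.subsingleton_quotient_top
  exact isCyclic_of_subsingleton

theorem a4_not_comm : ∃ a b : alternatingGroup (Fin 4), a * b ≠ b * a := by decide

/-- The converse direction: if all subgroups with normal Sylow 2-subgroup and cyclic quotient are
cyclic, dihedral or `A₄`, then the Sylow 2-subgroups are cyclic, or dihedral with self-centralizing
four-subgroups. -/
theorem two_by_cyclic_converse {G : Type*} [Group G] [Finite G] (P : Sylow 2 G)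
    (hyp : ∀ H : Subgroup G, (∀ S : Sylow 2 ↥H, (S : Subgroup ↥H).Normal) →
        (∀ (S : Sylow 2 ↥H) [(S : Subgroup ↥H).Normal], IsCyclic (↥H ⧸ (S : Subgroup ↥H))) →
        IsCyclic H ∨ (∃ n : ℕ, Nonempty (H ≃* DihedralGroup (2 ^ n))) ∨
          Nonempty (H ≃* alternatingGroup (Fin 4))) :
    IsCyclic P ∨
      ((∃ n : ℕ, 1 ≤ n ∧ Nonempty ((P : Subgroup G) ≃* DihedralGroup (2 ^ n))) ∧
        ∀ K : Subgroup G, K ≤ P → Nat.card K = 4 → (∀ k ∈ K, k ^ 2 = 1) →
          Subgroup.centralizer (K : Set G) = K) := by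
  have : Fact (Nat.Prime 2) := ⟨Nat.prime_two⟩
  have hPtop : ∀ S : Sylow 2 (P : Subgroup G), (S : Subgroup (P : Subgroup G)) = ⊤ := by
    intro S
    exact (S.is_maximal' ((P.isPGroup').to_subgroup ⊤) le_top).symm
  have hP := hyp P (fun S => by rw [hPtop S]; infer_instance)
    (fun S _ => isCyclic_quotient_of_eq_top _ (hPtop S))
  by_cases hcP : IsCyclic P
  · left; exact hcP
  right
  constructor
  · rcases hP with h | ⟨n, ⟨e⟩⟩ | ⟨⟨e⟩⟩
    · exact absurd h hcP
    · rcases Nat.eq_zero_or_pos n with rfl | hn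
      · exfalso; apply hcP
        have h2 : Nat.card (P : Subgroup G) = 2 := by
          rw [Nat.card_congr e.toEquiv, DihedralGroup.nat_card]; norm_num
        exact isCyclic_of_prime_card h2
      · exact ⟨n, hn, ⟨e⟩⟩
    · exfalso
      have h12 : Nat.card (P : Subgroup G) = 12 := by
        rw [Nat.card_congr e.toEquiv, Nat.card_eq_fintype_card]; decide
      obtain ⟨k, hk⟩ := (IsPGroup.iff_card).1 P.isPGroup'
      rw [h12] at hk
      have h3 : 3 ∣ 2 ^ k := by rw [← hk]; norm_num
      have h4 := Nat.Prime.dvd_of_dvd_pow Nat.prime_three h3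
      norm_num at h4
  · intro K hKP h4 hsq
    have hsq' : ∀ k ∈ K, k * k = 1 := fun k hk => by rw [← sq]; exact hsq k hk
    have hcommK : ∀ a ∈ K, ∀ b ∈ K, a * b = b * a := by
      intro a ha b hb
      have := comm_of_sq (Y := K) (fun t => Subtype.ext (hsq' t t.2)) ⟨a, ha⟩ ⟨b, hb⟩
      exact congrArg Subtype.val this
    have hK2 : IsPGroup 2 K := IsPGroup.of_card (n := 2) (by rw [h4]; norm_num)
    apply le_antisymm
    · intro c hc
      have hKcK : K ≤ centralizer (K : Set G) := fun a ha =>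
        mem_centralizer_iff.2 (fun b hb => hcommK b hb a ha)
      have hzK : zpowers c ≤ centralizer (K : Set G) := zpowers_le.2 hc
      have hKz : K ≤ centralizer ((zpowers c : Subgroup G) : Set G) := le_centralizer_iff.1 hzK
      have hzz : zpowers c ≤ centralizer ((zpowers c : Subgroup G) : Set G) := by
        rw [zpowers_le, mem_centralizer_iff]
        intro h hh
        obtain ⟨i, rfl⟩ := mem_zpowers_iff.1 hh
        exact ((Commute.refl c).zpow_left i).eq
      have hTK : K ⊔ zpowers c ≤ centralizer (K : Set G) := sup_le hKcK hzK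
      have hTz : K ⊔ zpowers c ≤ centralizer ((zpowers c : Subgroup G) : Set G) :=
        sup_le hKz hzz
      have hTT : K ⊔ zpowers c ≤ centralizer ((K ⊔ zpowers c : Subgroup G) : Set G) :=
        sup_le (le_centralizer_iff.1 hTK) (le_centralizer_iff.1 hTz)
      have hcommT : ∀ a b : (K ⊔ zpowers c : Subgroup G), a * b = b * a := by
        intro a b
        apply Subtype.ext
        exact mem_centralizer_iff.1 (hTT b.2) a a.2
      have hnorm : ∀ N : Subgroup (K ⊔ zpowers c : Subgroup G), N.Normal := by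
        intro N
        refine ⟨fun n hn g => ?_⟩
        rw [hcommT g n, mul_inv_cancel_right]; exact hn
      have hcT : c ∈ K ⊔ zpowers c := le_sup_right (α := Subgroup G) (mem_zpowers c)
      have hKT : K ≤ K ⊔ zpowers c := le_sup_left
      have hcycT : ∀ (S : Sylow 2 (K ⊔ zpowers c : Subgroup G))
          [(S : Subgroup (K ⊔ zpowers c : Subgroup G)).Normal],
          IsCyclic ((K ⊔ zpowers c : Subgroup G) ⧸ (S : Subgroup (K ⊔ zpowers c : Subgroup G))) := by
        intro S _
        have hKS : K.subgroupOf (K ⊔ zpowers c) ≤ S := by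
          have := hnorm (K.subgroupOf (K ⊔ zpowers c))
          exact IsPGroup.le_sylow_of_normal hK2.comap_subtype S
        rw [isCyclic_iff_exists_zpowers_eq_top]
        refine ⟨QuotientGroup.mk ⟨c, hcT⟩, ?_⟩
        rw [eq_top_iff]
        rintro q -
        obtain ⟨t, rfl⟩ := QuotientGroup.mk_surjective q
        have hle : K ⊔ zpowers c ≤ ((zpowers (QuotientGroup.mk ⟨c, hcT⟩ :
            (K ⊔ zpowers c : Subgroup G) ⧸ (S : Subgroup (K ⊔ zpowers c : Subgroup G)))).comap
            (QuotientGroup.mk' (S : Subgroup (K ⊔ zpowers c : Subgroup G)))).map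
            (K ⊔ zpowers c).subtype := by
          apply sup_le
          · intro k hk
            refine ⟨⟨k, hKT hk⟩, ?_, rfl⟩
            have hkS : (⟨k, hKT hk⟩ : (K ⊔ zpowers c : Subgroup G)) ∈
                (S : Subgroup (K ⊔ zpowers c : Subgroup G)) :=
              hKS (by rw [mem_subgroupOf]; exact hk)
            show QuotientGroup.mk' _ _ ∈ zpowers _
            rw [QuotientGroup.mk'_apply, (QuotientGroup.eq_one_iff _).2 hkS]
            exact one_mem _
          · rw [zpowers_le]
            exact ⟨⟨c, hcT⟩, mem_zpowers _, rfl⟩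
        obtain ⟨t', ht', htt⟩ := hle t.2
        have ht'' : t' = t := Subtype.ext htt
        rw [← ht'']; exact ht'
      rcases hyp (K ⊔ zpowers c) (fun S => hnorm _) hcycT with h | ⟨n, ⟨e⟩⟩ | ⟨⟨e⟩⟩
      · exfalso
        have := h
        exact not_isCyclic_of_card_four_of_sq K h4 hsq' (Subgroup.isCyclic_of_le hKT)
      · have h1 : (DihedralGroup.r 1 : DihedralGroup (2 ^ n)) * DihedralGroup.sr 0 =
            DihedralGroup.sr 0 * DihedralGroup.r 1 := by
          have h0 := hcommT (e.symm (DihedralGroup.r 1)) (e.symm (DihedralGroup.sr 0))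
          rw [← map_mul, ← map_mul] at h0
          exact e.symm.injective h0
        rw [DihedralGroup.r_mul_sr, DihedralGroup.sr_mul_r] at h1
        have h2 : (0 : ZMod (2 ^ n)) - 1 = 0 + 1 := DihedralGroup.sr.inj h1
        have h3 : ((2 : ℕ) : ZMod (2 ^ n)) = 0 := by
          push_cast; linear_combination -h2
        rw [ZMod.natCast_eq_zero_iff] at h3
        have h5 : 2 ^ n ≤ 2 := Nat.le_of_dvd (by norm_num) h3
        have hcardT : Nat.card (K ⊔ zpowers c : Subgroup G) ≤ 4 := by
          rw [Nat.card_congr e.toEquiv, DihedralGroup.nat_card]; omega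
        have hKeq : K = K ⊔ zpowers c :=
          Subgroup.eq_of_le_of_card_ge hKT (by rw [h4]; exact hcardT)
        have hcK : c ∈ K := by rw [hKeq]; exact hcT
        exact hcK
      · exfalso
        obtain ⟨a, b, hab⟩ := a4_not_comm
        apply hab
        have h0 := hcommT (e.symm a) (e.symm b)
        rw [← map_mul, ← map_mul] at h0
        exact e.symm.injective h0
    · intro a ha
      rw [mem_centralizer_iff]
      intro b hb
      exact hcommK b hb a ha

end Cfsg.Agent.Lib.Helper52
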